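import Mathlib
import Cfsg.Agent.H1.CT3
import Cfsg.Agent.H1.KW
import Cfsg.Agent.H1.Misc1
import Cfsg.Agent.L0.G3
import Cfsg.Agent.L0.Kaz2
import Cfsg.Agent.S4160

set_option autoImplicit false

namespace CfsgH1
open Cfsg Subgroup CfsgH2
open CfsgL0 (cs_eq_one eq_of_le_of_index_le card_eq_of_index_eq not_dvd_cs c1_le_of_mem cs_conj)

variable {G : Type*} [Group G] [Finite G]

theorem resid : ∃ N : Subgroup G, N.Normal ∧ (Sol[N] → Group.IsSolvable G) ∧
    ∀ p : ℕ, p.Prime → HasNormalPComplement p G → ¬ p ∣ o[N] := by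
  obtain ⟨k, -, hk⟩ := (measure fun k => o[derivedSeries G k]).wf.has_min Set.univ ⟨0, trivial⟩
  have le : ∀ j, derivedSeries G k ≤ derivedSeries G j := fun j =>
    (eq_of_le_of_card_ge (derivedSeries_antitone G (le_max_right j k)) (not_lt.1 (hk _ trivial))).ge.trans
      (derivedSeries_antitone G (le_max_left j k))
  refine ⟨derivedSeries G k, inferInstance, fun h => ?_, ?_⟩
  · haveI : Group.IsSolvable (G ⧸ derivedSeries G k) := ⟨k, by
      rw [← map_derivedSeries_eq (QuotientGroup.mk'_surjective _), QuotientGroup.map_mk'_self]⟩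
    exact Group.isSolvable_of_ker_le_range (derivedSeries G k).subtype (QuotientGroup.mk' (derivedSeries G k))
      (by simp)
  · rintro p hp ⟨P, M, hM, hc⟩ d
    haveI := Fact.mk hp
    obtain ⟨j, hj⟩ := P.isPGroup'.exists_card_eq
    haveI := (IsPGroup.of_card (G := G ⧸ M) (hc.symm.index_eq_card.trans hj)).isNilpotent
    obtain ⟨i, hi⟩ := (inferInstance : Group.IsSolvable (G ⧸ M))
    have : derivedSeries G i ≤ M := by
      have := map_derivedSeries_le_derivedSeries (QuotientGroup.mk' M) i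
      rwa [hi, le_bot_iff, Subgroup.map_eq_bot_iff, QuotientGroup.ker_mk'] at this
    exact P.not_dvd_index (hc.index_eq_card ▸ d.trans (card_dvd_of_le ((le i).trans this)))

theorem bpq {p r : ℕ} (hp : p.Prime) (hr : r.Prime) (k : ∀ s : ℕ, s.Prime → s ∣ Nat.card G → s ≠ p → s = r) :
    Group.IsSolvable G := by
  refine CfsgH3.burnside_paqb p r ((Nat.card G).factorization p) ((Nat.card G).factorization r) hp hr ?_
  refine (Nat.factorization_prime_le_iff_dvd Nat.card_pos.ne'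
    (mul_ne_zero (pow_ne_zero _ hp.ne_zero) (pow_ne_zero _ hr.ne_zero))).1 fun q hq => ?_
  rw [Nat.factorization_mul (pow_ne_zero _ hp.ne_zero) (pow_ne_zero _ hr.ne_zero), hp.factorization_pow,
    hr.factorization_pow, Finsupp.add_apply]
  by_cases d : q ∣ Nat.card G
  · by_cases e : q = p
    · subst e; simp
    · rw [k q hq d e]; simp
  · rw [Nat.factorization_eq_zero_of_not_dvd d]; exact Nat.zero_le _

theorem kwp {r : ℕ} (hr : r.Prime) {A : Subgroup G} (hA : Nil[A]) (h : ∀ q : ℕ, q.Prime → q ∣ A.index → q = r) :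
    Group.IsSolvable G := by
  haveI := Fact.mk hr
  obtain ⟨R, hR⟩ := exists_syl (p := r) (⊤ : Subgroup G)
  refine kw_aux _ G rfl A R (fac_top_of_coprime_index (Nat.coprime_of_dvd fun q hq d1 d2 => hR.nd ?_)) hA
    hR.pg.isNilpotent
  rwa [relIndex_top_right, ← h q hq d1]

theorem dich {m : ℕ} (h0 : m ≠ 0) : (∃ p r : ℕ, p.Prime ∧ r.Prime ∧ p ≠ r ∧ p ∣ m ∧ r ∣ m) ∨
    ∃ r e : ℕ, r.Prime ∧ m = r ^ e := by
  by_cases e : m = 1
  · exact Or.inr ⟨2, 0, Nat.prime_two, e⟩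
  refine or_iff_not_imp_left.2 fun k => ⟨_, _, Nat.minFac_prime e, Nat.eq_prime_pow_of_unique_prime_dvd h0
    fun {d} hd l => by_contra fun n => k ⟨_, _, hd, Nat.minFac_prime e, n, l, Nat.minFac_dvd _⟩⟩

theorem nil_ab {D : Subgroup G} {s : ℕ} [Fact s.Prime]
    (h : ∀ u : ℕ, u.Prime → u ≠ s → ∀ x ∈ D, Pe u x → D ≤ C1[x]) :
    Nil[D] ∧ ∀ S, Syl s S D → S ≤ C[S] → D ≤ C[D] := by
  have k : ∀ (u : ℕ) [Fact u.Prime], u ≠ s → ∀ P, Syl u P D → P ≤ C[D] := fun u _ n P hP x hx y hy =>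
    m1.1 (h u Fact.out n x (hP.le hx) (pgroup_pow_eq_one hP.pg hx) hy)
  have k2 : ∀ {E S : Subgroup G}, Syl s S D → S ≤ E → C[D] ≤ E → D ≤ E := fun {E S} hS l l' =>
    le_of_syl fun u _ _ => by
      by_cases n : u = s
      · subst n; exact ⟨S, hS, l⟩
      · obtain ⟨P, hP⟩ := exists_syl (p := u) D
        exact ⟨P, hP, (k u n P hP).trans l'⟩
  refine ⟨nil_of_syl fun u _ _ => ?_, fun S hS a => k2 hS (le_centralizer_iff.1
    (k2 hS a (centralizer_le (SetLike.coe_subset_coe.2 hS.le)))) le_rfl⟩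
  obtain ⟨P, hP⟩ := exists_syl (p := u) D
  refine ⟨P, hP, ?_⟩
  by_cases n : u = s
  · subst n
    exact k2 hP le_normalizer ((centralizer_le (SetLike.coe_subset_coe.2 hP.le)).trans (centralizer_le_normalizer _))
  · exact (le_centralizer_iff.1 (k u n P hP)).trans (centralizer_le_normalizer _)

theorem mul_ne {t y : G} (o : (orderOf t).Prime) (c : (orderOf y).Coprime (orderOf t)) : y * t ≠ 1 := fun e => by
  rw [eq_inv_of_mul_eq_one_left e, orderOf_inv, Nat.coprime_self] at c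
  exact o.one_lt.ne' c

theorem mm_cent {t : G} (o : (orderOf t).Prime) (mn : ∀ g : G, g ≠ 1 → C1[g] ≤ C1[t] → C1[g] = C1[t]) :
    ∀ u : ℕ, u.Prime → u ≠ orderOf t → ∀ x ∈ C1[t], Pe u x → C1[t] ≤ C1[x] := fun u hu n x hx px => by
  have c := px.cop ((Nat.coprime_primes hu o).2 n)
  have q := c1_mul_cop (m1.1 hx) c
  exact ((mn _ (mul_ne o c) (q ▸ inf_le_right)).symm.trans q).le.trans inf_le_left

theorem ac2' {S : Subgroup G} (hS : PG[2, S])
    (h : ∀ x ∈ S, x ≠ 1 → ∀ u ∈ zpowers x, orderOf u = 2 → C1[x] = C1[u]) : S ≤ C[S] := by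
  have inv : ∀ x ∈ S, x ≠ 1 → ∃ u ∈ zpowers x, u ^ 2 = 1 ∧ C1[x] = C1[u] := fun x hx x1 => by
    obtain ⟨u, hu, o, -⟩ := pz (hS.to_le (zpowers_le.2 hx)) (mt zpowers_eq_bot.1 x1)
    exact ⟨u, hu, o ▸ pow_orderOf_eq_one u, h x hx x1 u hu o⟩
  have s1 : ∀ u ∈ S, ∀ v ∈ S, u ^ 2 = 1 → v ^ 2 = 1 → Commute u v := fun u hu v hv u2 v2 => by
    by_cases x1 : u * v = 1
    · rw [eq_inv_of_mul_eq_one_left x1]; exact (Commute.refl v).inv_left
    obtain ⟨_, ⟨k, rfl⟩, y2, e⟩ := inv _ (mul_mem hu hv) x1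
    have v' : v⁻¹ = v := inv_eq_of_mul_eq_one_left (by rw [← sq, v2])
    have c1 : u * (u * v) * u⁻¹ = (u * v)⁻¹ := by rw [mul_inv_rev, v', ← mul_assoc, ← sq, u2, one_mul]
    have c2 : u * (u * v) ^ k * u⁻¹ = (u * v) ^ k := by
      rw [← conj_zpow, c1, inv_zpow]
      exact inv_eq_of_mul_eq_one_left (by rw [← sq]; exact y2)
    have c3 : Commute u (u * v) := m1.1 (e.ge (m1.2 (mul_inv_eq_iff_eq_mul.1 c2)))
    have := ((Commute.refl u).inv_right).symm.symm.mul_right c3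
    rwa [inv_mul_cancel_left] at this
  have s2 : ∀ u ∈ S, u ^ 2 = 1 → ∀ s ∈ S, Commute u s := fun u hu u2 s hs => by
    by_cases x1 : s = 1
    · rw [x1]; exact Commute.one_right u
    obtain ⟨w, hw, w2, e⟩ := inv s hs x1
    exact m1.1 (e.ge (m1.2 (s1 u hu w (zpowers_le.2 hs hw) u2 w2)))
  intro s hs y hy
  by_cases x1 : s = 1
  · simp [x1]
  obtain ⟨w, hw, w2, e⟩ := inv s hs x1
  exact m1.1 (e.ge (m1.2 (s2 w (zpowers_le.2 hs hw) w2 y hy).symm))

theorem AbC.ab {t : G} (h : AbC t) : Ab[C1[t]] := ⟨⟨fun a b => Subtype.ext (m1.1 (h b b.2 a.2))⟩⟩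

theorem fin_ab {t : G} (o : ¬ 2 ∣ C1[t].index) (a : AbC t)
    (mx : ∀ u : G, orderOf u = 2 → C1[t] ≤ C1[u] → C1[u] = C1[t]) (u : G) (hu : orderOf u = 2) : Ab[C1[u]] := by
  obtain ⟨S, hS, l⟩ := Syl.exists_le_c1 (p := 2) o
  obtain ⟨g, -, hg⟩ := hS.exists_conj_le (CfsgH2.isPGroup_zpowers (k := 1) (x := u)
    (by rw [pow_one, ← hu, pow_orderOf_eq_one])) le_top
  have m : g * u * g⁻¹ ∈ C1[t] := l (hg ⟨u, mem_zpowers u, rfl⟩)
  have e := mx _ ((MulAut.conj g).orderOf_eq u ▸ hu) (a _ m)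
  have cj : ∀ x ∈ C1[u], g * x * g⁻¹ ∈ C1[t] := fun x hx => e.le (m1.2 ((m1.1 hx).conj g))
  refine ⟨⟨fun x y => Subtype.ext ((MulAut.conj g).injective ?_)⟩⟩
  simp only [coe_mul, map_mul]
  exact m1.1 (a _ (cj y y.2) (cj x x.2))

theorem rep_prime {k : G} (k1 : k ≠ 1) : ∃ a : G, (orderOf a).Prime ∧ C1[a].index ∣ C1[k].index := by
  obtain ⟨s, hs, ds⟩ := Nat.exists_prime_and_dvd (mt orderOf_eq_one_iff.1 k1)
  exact ⟨k ^ (orderOf k / s), by rwa [orderOf_pow_orderOf_div (orderOf_pos k).ne' ds],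
    index_dvd_of_le (c1_le_of_mem (npow_mem_zpowers k _))⟩

theorem ne_one_of_prime {a : G} (o : (orderOf a).Prime) : a ≠ 1 := fun e => o.one_lt.ne' (by rw [e, orderOf_one])

/-- Three class sizes, two of them coprime. -/
structure T3 (G : Type*) [Group G] (n Y W : ℕ) : Prop where
  all : ∀ g : G, g ≠ 1 → C1[g].index = n ∨ C1[g].index = Y ∨ C1[g].index = W
  cop : n.Coprime W
  n1 : n ≠ 1
  w1 : W ≠ 1
  yn : ¬ Y ∣ n
  yw : ¬ Y ∣ W
  dY : Y ∣ Nat.card G

namespace T3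
variable {n Y W : ℕ} {t : G}

omit [Finite G] in
theorem symm (h : T3 G n Y W) : T3 G W Y n :=
  ⟨fun g g1 => by have := h.all g g1; omega, h.cop.symm, h.w1, h.n1, h.yw, h.yn, h.dY⟩

omit [Finite G] in
theorem of_dvd (h : T3 G n Y W) {g : G} (g1 : g ≠ 1) (d : C1[g].index ∣ n) : C1[g].index = n := by
  rcases h.all g g1 with e | e | e
  · exact e
  · exact absurd (e ▸ d) h.yn
  · exact absurd (h.cop.symm.eq_one_of_dvd (e ▸ d)) h.w1

omit [Finite G] in
theorem of_dvd' (h : T3 G n Y W) {g : G} (g1 : g ≠ 1) (d : n ∣ C1[g].index) : C1[g].index = n ∨ C1[g].index = Y := by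
  rcases h.all g g1 with e | e | e
  · exact Or.inl e
  · exact Or.inr e
  · exact absurd (h.cop.eq_one_of_dvd (e ▸ d)) h.n1

theorem mx (h : T3 G n Y W) (e : C1[t].index = n) (g : G) (g1 : g ≠ 1) (l : C1[t] ≤ C1[g]) : C1[g] = C1[t] :=
  (eq_of_le_of_index_le l (e.trans (h.of_dvd g1 (e ▸ index_dvd_of_le l)).symm).le).symm

theorem mn (h : T3 G n Y W) (e : C1[t].index = n) (d : ¬ n ∣ Y) (g : G) (g1 : g ≠ 1) (l : C1[g] ≤ C1[t]) :
    C1[g] = C1[t] := by
  have k : n ∣ C1[g].index := e ▸ index_dvd_of_le l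
  exact eq_of_le_of_index_le l (((h.of_dvd' g1 k).resolve_right fun e' => d (e' ▸ k)).trans e.symm).le

theorem ab (h : T3 G n Y W) (o : (orderOf t).Prime) (e : C1[t].index = n) {m p r : ℕ} (hm : Y = n * m) (hp : p.Prime)
    (hr : r.Prime) (ne : p ≠ r) (dp : p ∣ m) (dr : r ∣ m) : AbC t := by
  obtain ⟨c, hc⟩ := h.dY
  have k : o[C1[t]] = m * c := Nat.eq_of_mul_eq_mul_left (Nat.pos_of_ne_zero (index_ne_zero_of_finite (H := C1[t])))
    (by rw [index_mul_card, hc, hm, e, mul_assoc])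
  refine cent_ab (c := c) hp hr ne o (k ▸ Nat.mul_dvd_mul_right dp c) (k ▸ Nat.mul_dvd_mul_right dr c) (h.mx e)
    fun g g1 l => (h.of_dvd' g1 (e ▸ index_dvd_of_le l)).imp (fun e' => eq_of_le_of_index_le l (e'.trans e.symm).le)
      fun e' => Nat.eq_of_mul_eq_mul_left (Nat.pos_of_ne_zero (index_ne_zero_of_finite (H := C1[g])))
        (by rw [index_mul_card, hc, e'])

theorem sol (h : T3 G n Y W) (o : orderOf t = 2) (e : C1[t].index = n) {r k : ℕ} (hr : r.Prime)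
    (hm : Y = n * r ^ k) : Sol[C1[t]] := by
  refine CfsgL0.sol_of_quot_solR ?_
  haveI := (IsPGroup.of_card (p := 2) (G := C1[t] ⧸ CfsgH9.Sol (⊤ : Subgroup C1[t]))
    (Nat.eq_prime_pow_of_unique_prime_dvd Nat.card_pos.ne' fun {s} hs d => by_contra fun s2 => ?_)).isNilpotent
  · infer_instance
  haveI := Fact.mk hs
  obtain ⟨P, hP⟩ := exists_syl (p := s) (⊤ : Subgroup C1[t])
  refine hP.not_dvd_of_le (fun y hy => CfsgL0.mem_solR (k := k) hr ?_) (by rwa [relIndex_top_right])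
  obtain ⟨j, hj⟩ := pgroup_pow_eq_one hP.pg hy
  have c : (orderOf (y : G)).Coprime (orderOf t) := Pe.cop ⟨j, congrArg Subtype.val hj⟩
    (o ▸ (Nat.coprime_primes hs Nat.prime_two).2 s2)
  have q := c1_mul_cop (m1.1 y.2) c
  have e1 : C1[y] = C1[(y : G)].subgroupOf C1[t] := by
    ext x; simp only [m1, mem_subgroupOf]; exact ⟨congrArg Subtype.val, fun k => Subtype.ext k⟩
  have e2 := relIndex_mul_index (inf_le_right : C1[(y : G)] ⊓ C1[t] ≤ _)
  rw [inf_relIndex_right, ← q, e] at e2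
  have n0 : 0 < n := e ▸ Nat.pos_of_ne_zero index_ne_zero_of_finite
  rw [e1]
  change C1[(y : G)].relIndex C1[t] ∣ _
  rcases h.of_dvd' (mul_ne (o ▸ Nat.prime_two) c) (e2 ▸ dvd_mul_left _ _) with w | w <;> rw [w] at e2
  · rw [Nat.eq_of_mul_eq_mul_right n0 (e2.trans (one_mul n).symm)]; exact one_dvd _
  · rw [Nat.eq_of_mul_eq_mul_right n0 (e2.trans (hm.trans (mul_comm _ _)))]

end T3

theorem ex_nd {p : ℕ} (hp : p.Prime) (d : p ∣ Nat.card G) : ∃ g : G, orderOf g = p ∧ ¬ p ∣ C1[g].index := by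
  haveI := Fact.mk hp
  obtain ⟨P, hP⟩ := exists_syl (p := p) (⊤ : Subgroup G)
  obtain ⟨g, -, o, l⟩ := pz hP.pg (hP.ne_bot (by rwa [card_top]))
  exact ⟨g, o, not_dvd_cs hP l⟩

theorem ex_dv (z : center G = ⊥) {p : ℕ} (hp : p.Prime) (d : p ∣ Nat.card G) : ∃ g : G, g ≠ 1 ∧ p ∣ C1[g].index := by
  haveI := Fact.mk hp
  obtain ⟨S, hS⟩ := exists_syl (p := p) (⊤ : Subgroup G)
  by_contra! k
  have : C[S] = ⊤ := eq_of_forall_conj_mem le_top fun x _ => hS.exists_conj_cent (by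
    rw [relIndex_top_right]
    by_cases e : x = 1
    · rw [cs_eq_one.2 (e ▸ one_mem _)]; exact hp.not_dvd_one
    · exact k x e)
  exact hS.ne_bot (by rwa [card_top]) (eq_bot_iff.2 fun u uS =>
    z.le (mem_center_iff.2 fun g => (this.ge (mem_top g) u uS).symm))

theorem pq_npc {p q : ℕ} {x y : G} (hp : p.Prime) (hq : q.Prime) (n : p ≠ q) (dx : p ∣ C1[x].index)
    (dy : q ∣ C1[y].index) (k : ∀ g : G, g ≠ 1 → p ∣ C1[g].index → ¬ q ∣ C1[g].index) :
    HasNormalPComplement p G ∨ HasNormalPComplement q G := by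
  refine Cfsg.Agent.S4160.result p q hp hq n ⟨x, dx⟩ ⟨y, dy⟩ fun g d => k g (fun e => ?_)
    ((dvd_mul_right p q).trans d) ((dvd_mul_left q p).trans d)
  rw [cs_eq_one.2 (e ▸ one_mem _)] at d
  exact hp.one_lt.ne' (Nat.dvd_one.1 ((dvd_mul_right p q).trans d))

theorem T3.main {n Y W : ℕ} (h : T3 G n Y W) (z : center G = ⊥) (ns : ¬ Group.IsSolvable G) {t b : G}
    (o : orderOf t = 2) (e : C1[t].index = n) (ob : (orderOf b).Prime) (eb : C1[b].index = W) (n2 : ¬ 2 ∣ n)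
    (dd : n ∣ Y ∨ W ∣ Y) : AbC t := by
  have ot : (orderOf t).Prime := o ▸ Nat.prime_two
  have Y0 : Y ≠ 0 := ne_zero_of_dvd_ne_zero Nat.card_pos.ne' h.dY
  obtain ⟨N, hN, sN, pN⟩ := resid (G := G)
  have cp : ∀ {p : ℕ}, p.Prime → p ∣ n → ¬ p ∣ W := fun hp a b =>
    hp.one_lt.ne' (Nat.eq_one_of_dvd_coprimes h.cop a b)
  by_cases dn : n ∣ Y
  · obtain ⟨m, hm⟩ := dn
    rcases dich (m := m) (fun k => Y0 (by rw [hm, k, mul_zero])) with ⟨p, r, hp, hr, ne, dp, dr⟩ | ⟨r, k, hr, rfl⟩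
    · exact h.ab ot e hm hp hr ne dp dr
    exfalso
    have dr : ∀ {q : ℕ}, q.Prime → q ∣ r ^ k → q = r := fun hq d =>
      (Nat.prime_dvd_prime_iff_eq hq hr).1 (hq.dvd_of_dvd_pow d)
    by_cases dW : W ∣ Y
    · obtain ⟨m', hm'⟩ := id dW
      have w : W ∣ r ^ k := h.cop.symm.dvd_of_dvd_mul_left (hm ▸ dW)
      have nm : n ∣ m' := h.cop.dvd_of_dvd_mul_left (hm' ▸ hm ▸ dvd_mul_right _ _)
      have pn : ∀ p : ℕ, p.Prime → p ∣ Nat.card G → p ≠ r → p ∣ m' := fun p hp d ne => by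
        obtain ⟨g, g1, dg⟩ := ex_dv z hp d
        rcases h.all g g1 with k | k | k <;> rw [k] at dg
        · exact dg.trans nm
        · exact ((hp.dvd_mul.1 (hm ▸ dg)).resolve_right fun k => ne (dr hp k)).trans nm
        · exact absurd (dr hp (dg.trans w)) ne
      obtain ⟨p, hp, d, ne, -⟩ : ∃ s : ℕ, s.Prime ∧ s ∣ Nat.card G ∧ s ≠ r ∧ s ≠ r := by
        by_contra! k; exact ns (bpq hr hr k)
      obtain ⟨q, hq, d', ne', ne''⟩ : ∃ s : ℕ, s.Prime ∧ s ∣ Nat.card G ∧ s ≠ p ∧ s ≠ r := by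
        by_contra! k; exact ns (bpq hp hr k)
      exact ns (CfsgL0.sol_of_ab_index hr (h.symm.ab ob eb hm' hq hp ne' (pn q hq d' ne'') (pn p hp d ne)).ab
        (eb ▸ w))
    haveI := Fact.mk ob
    have nB := (nil_ab (mm_cent ob (h.symm.mn eb dW))).1
    by_cases hp : ∀ p : ℕ, p.Prime → p ∣ n → HasNormalPComplement p G
    · have l : N ≤ C1[t] := CfsgL0.le_c1_of_coprime (Nat.coprime_of_dvd fun p h1 d1 d2 =>
        pN p h1 (hp p h1 (e ▸ d2)) d1)
      haveI := h.sol o e hr hm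
      exact ns (sN (Group.isSolvable_of_isSolvable_injective (inclusion_injective l)))
    push Not at hp
    obtain ⟨p, hp, dp, np⟩ := hp
    refine ns (sN (kwp hr (A := C1[b].subgroupOf N) (isNilpotent_comap_of_injective (subtype_injective _) _)
      fun q hq d => by_contra fun ne => ?_))
    have dq : q ∣ W := eb ▸ d.trans (CfsgL0.relIndex_dvd_index' _)
    refine pN q hq ((pq_npc hp hq (fun k => cp hp dp (k ▸ dq)) (e ▸ dp) (eb ▸ dq) fun g g1 d1 d2 => ?_).resolve_left np)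
      (d.trans (index_dvd_card _))
    rcases h.all g g1 with k | k | k <;> rw [k] at d1 d2
    · exact cp hq d2 dq
    · exact (hq.dvd_mul.1 (hm ▸ d2)).elim (fun k => cp hq k dq) fun k => ne (dr hq k)
    · exact cp hp dp d1
  by_cases k : ∃ r : ℕ, r.Prime ∧ r ∣ o[C1[t]] ∧ 2 ≠ r
  · obtain ⟨r, hr, d, ne⟩ := k
    exact cent_ab (c := 1) Nat.prime_two hr ne ot (by rw [mul_one, ← o]; exact orderOf_dvd_natCard _ (m1.2 rfl))
      (by rwa [mul_one]) (h.mx e) fun g g1 k => Or.inl (h.mn e dn g g1 k)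
  push Not at k
  exfalso
  have pn : ∀ p : ℕ, p.Prime → p ∣ Nat.card G → p ≠ 2 → p ∣ n := fun p hp d ne => by
    rw [← C1[t].index_mul_card, e] at d
    exact (hp.dvd_mul.1 d).resolve_right fun d => ne (k p hp d).symm
  have w2 : ∀ p : ℕ, p.Prime → p ∣ W → p = 2 := fun p hp d => by_contra fun ne =>
    cp hp (pn p hp ((eb ▸ d : p ∣ C1[b].index).trans (index_dvd_card _)) ne) d
  obtain ⟨m, hm⟩ := dd.resolve_left dn
  rcases dich (m := m) (fun k => Y0 (by rw [hm, k, mul_zero])) with ⟨p, r, hp, hr, ne, dp, dr⟩ | ⟨r, k, hr, rfl⟩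
  · exact ns (CfsgL0.sol_of_ab_index Nat.prime_two (h.symm.ab ob eb hm hp hr ne dp dr).ab
      (Nat.eq_prime_pow_of_unique_prime_dvd index_ne_zero_of_finite fun {q} hq d => w2 q hq (eb ▸ d)).dvd)
  have d2 : 2 ∣ W := by
    obtain ⟨p, hp, d⟩ := Nat.exists_prime_and_dvd h.w1
    exact w2 p hp d ▸ d
  have n2' : ¬ HasNormalPComplement 2 G := fun k => ns (sN (ft_of_not_dvd (pN 2 Nat.prime_two k)))
  refine ns (sN (bpq Nat.prime_two hr fun q hq d ne => by_contra fun ne' => ?_))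
  have dq := pn q hq (d.trans (card_subgroup_dvd_card _)) ne
  refine pN q hq ((pq_npc Nat.prime_two hq (Ne.symm ne) (eb ▸ d2) (e ▸ dq) fun g g1 d1 d2 => ?_).resolve_left n2') d
  rcases h.all g g1 with k | k | k <;> rw [k] at d1 d2
  · exact n2 d1
  · exact (hq.dvd_mul.1 (hm ▸ d2)).elim (cp hq dq) fun k =>
      ne' ((Nat.prime_dvd_prime_iff_eq hq hr).1 (hq.dvd_of_dvd_pow k))
  · exact cp hq dq d2

theorem three_sizes (z : center G = ⊥) (ns : ¬ Group.IsSolvable G)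
    (h3 : ∀ x y : G, x ≠ 1 → y ≠ 1 → C1[x].index ≠ C1[y].index → ∃ z : G, z ≠ 1 ∧ ∀ g : G, g ≠ 1 →
      C1[g].index = C1[x].index ∨ C1[g].index = C1[y].index ∨ C1[g].index = C1[z].index) :
    ∀ u : G, orderOf u = 2 → Ab[C1[u]] := by
  have ev : 2 ∣ Nat.card G := by_contra fun k => ns (ft_of_not_dvd k)
  obtain ⟨t, ot, t2⟩ := ex_nd Nat.prime_two ev
  have pt : (orderOf t).Prime := ot ▸ Nat.prime_two
  have t1 := ne_one_of_prime pt
  have i1 : ∀ {u : G}, orderOf u = 2 → u ≠ 1 := fun e => ne_one_of_prime (e ▸ Nat.prime_two)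
  by_cases ac : ∀ g k : G, g ≠ 1 → k ≠ 1 → C1[g] ≤ C1[k] → C1[g] = C1[k]
  · refine fin_ab t2 ?_ fun g g1 k => (ac t g t1 (i1 g1) k).symm
    by_cases k : ∃ r : ℕ, r.Prime ∧ r ∣ o[C1[t]] ∧ 2 ≠ r
    · obtain ⟨r, hr, d, n⟩ := k
      exact cent_ab (c := 1) Nat.prime_two hr n pt (by rw [mul_one, ← ot]; exact orderOf_dvd_natCard _ (m1.2 rfl))
        (by rwa [mul_one]) (fun g g1 k => (ac t g t1 g1 k).symm) fun g g1 k => Or.inl (ac g t g1 t1 k)
    push Not at k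
    have := ac2' (S := C1[t]) (IsPGroup.of_card (Nat.eq_prime_pow_of_unique_prime_dvd Nat.card_pos.ne'
      fun {d} hd e => (k d hd e).symm)) fun x _ x1 u hu o => ac x u x1 (i1 o) (c1_le_of_mem hu)
    exact fun x hx y hy => m1.2 (this hx y hy)
  push Not at ac
  obtain ⟨g, k, g1, k1, gk, ne⟩ := ac
  have xy : C1[k].index ∣ C1[g].index := index_dvd_of_le gk
  obtain ⟨w, w1, all⟩ := h3 k g k1 g1 fun e => ne (eq_of_le_of_index_le gk e.ge)
  have c1 : ∀ {x : G}, x ≠ 1 → C1[x].index ≠ 1 := fun x1 e => x1 (mem_bot.1 (z.le (cs_eq_one.1 e)))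
  have cop : C1[k].index.Coprime C1[w].index := Nat.coprime_of_dvd fun p hp d1 d2 => by
    obtain ⟨y, o, n⟩ := ex_nd hp (d1.trans (index_dvd_card _))
    rcases all y (ne_one_of_prime (o ▸ hp)) with e | e | e <;> rw [e] at n
    exacts [n d1, n (d1.trans xy), n d2]
  have h : T3 G C1[k].index C1[g].index C1[w].index := ⟨all, cop, c1 k1, c1 w1,
    fun d => ne (eq_of_le_of_index_le gk (Nat.dvd_antisymm d xy).le), fun d => c1 k1 (cop.eq_one_of_dvd (xy.trans d)),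
    index_dvd_card _⟩
  obtain ⟨a, oa, da⟩ := rep_prime k1
  obtain ⟨b, ob, db⟩ := rep_prime w1
  have ea := h.of_dvd (ne_one_of_prime oa) da
  have eb := h.symm.of_dvd (ne_one_of_prime ob) db
  by_cases c : ∀ u : G, orderOf u = 2 → ¬ 2 ∣ C1[u].index → C1[u].index = C1[g].index
  swap
  · push Not at c
    obtain ⟨u, ou, u2, n⟩ := c
    rcases all u (i1 ou) with e | e | e
    · exact fin_ab u2 (h.main z ns ou e ob eb (e ▸ u2) (Or.inl xy)) fun v ov => h.mx e v (i1 ov)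
    · exact absurd e n
    · exact fin_ab u2 (h.symm.main z ns ou e oa ea (e ▸ u2) (Or.inr xy)) fun v ov => h.symm.mx e v (i1 ov)
  have y2 : ¬ 2 ∣ C1[g].index := c t ot t2 ▸ t2
  have a2 : ¬ 2 ∣ C1[a].index := fun d => y2 ((ea ▸ d).trans xy)
  obtain ⟨S, hS, l⟩ := Syl.exists_le_c1 (p := 2) a2
  have oa2 : orderOf a ≠ 2 := fun e => h.yn (c a e a2 ▸ ea.dvd)
  have up : ∀ {y : G}, y ≠ 1 → C1[g].index ∣ C1[y].index → C1[y].index = C1[g].index := fun y1 d => by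
    rcases all _ y1 with e | e | e
    · exact absurd (e ▸ d) h.yn
    · exact e
    · exact absurd (e ▸ d) h.yw
  have ab := ac2' hS.pg fun x hx x1 u hu o => by
    have cp := Pe.cop (pgroup_pow_eq_one hS.pg hx) ((Nat.coprime_primes Nat.prime_two oa).2 oa2.symm)
    have q := c1_mul_cop (m1.1 (l hx)) cp
    have x2 : ¬ 2 ∣ C1[x].index := fun d => by
      have d' := d.trans (index_dvd_of_le (q ▸ inf_le_left : C1[x * a] ≤ C1[x]))
      rcases h.of_dvd' (mul_ne oa cp) (ea ▸ index_dvd_of_le (q ▸ inf_le_right)) with e | e <;> rw [e] at d'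
      exacts [y2 (d'.trans xy), y2 d']
    have d := index_dvd_of_le (c1_le_of_mem hu)
    have e := c u o fun k => x2 (k.trans d)
    exact eq_of_le_of_index_le (c1_le_of_mem hu) ((up x1 (e ▸ d)).trans e.symm).le
  obtain ⟨v, -, ov, lv⟩ := pz hS.pg (hS.ne_bot (by rwa [card_top]))
  have v2 := not_dvd_cs hS lv
  have ev := c v ov v2
  have := (nil_ab (s := 2) (ov ▸ mm_cent (ov ▸ Nat.prime_two) fun y y1 l =>
    eq_of_le_of_index_le l ((up y1 (ev ▸ index_dvd_of_le l)).trans ev.symm).le)).2 S (hS.mono lv le_top) ab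
  exact fin_ab v2 (fun x hx y hy => m1.2 (this hx y hy)) fun u ou l => (eq_of_le_of_index_le l
    (ev.trans (c u ou fun k => v2 (k.trans (index_dvd_of_le l))).symm).le).symm

end CfsgH1
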