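import Cfsg.Agent.H1.LX2
import Cfsg.Agent.H1.Wielandt
import Cfsg.Agent.H2.Trans
import Cfsg.Agent.H4.G2
import Cfsg.Agent.H9.Comp2

/-! Normal structure of a group with a large extraspecial 2-subgroup. -/

set_option autoImplicit false

namespace CfsgH1

open Subgroup Cfsg CfsgH2 Function
open scoped commutatorElement

variable {G : Type*} [Group G] [Finite G] {a b c g k q u x y z : G} {A H K L M N P Q R V W X : Subgroup G} {n : ℕ}

theorem lx_of_Fs (hz : orderOf z = 2) (hF : CfsgH9.Fs C1[z] = Q) (hQ : IsExtraspecial 2 Q) : LX Q z := by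
  have c : C1[z] ⊓ C[Q] ≤ Q := hF ▸ CfsgH9.centralizer_Fs_le _
  have l : Q ≤ C1[z] := hF ▸ CfsgH9.Fs_le _
  exact XZ.lx_of_core (ne_one_of_two hz) hQ l (hF ▸ CfsgH9.le_normalizer_Fs le_normalizer) (c ⟨mem_centralizer_singleton_iff.2 rfl, le_cent1_iff.1 l⟩) c

theorem LX.mem_of_norm (h : LX Q z) (hl : IsLargeExtraspecial Q) (h0 : X ≠ ⊥) (hn : Q ≤ N[X]) : z ∈ X := by
  haveI : Fact (Nat.Prime 2) := ⟨Nat.prime_two⟩
  obtain ⟨x, hx, x1⟩ := exists_ne_one (inf_cent_ne_bot h.pg hn (not_not.1 fun k => h0 (hl.2.2.2 X (Nat.odd_iff.2 (Nat.two_dvd_ne_zero.1 k)) hn)))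
  exact ((mem_zp2 h.ord).1 (h.cent_eq.le hx.2)).resolve_left x1 ▸ hx.1

theorem LX.simple (h : LX Q z) (hl : IsLargeExtraspecial Q) (hM : C1[z] ≤ normalClosure {z}) : IsSimpleGroup G := by
  haveI : Fact (Nat.Prime 2) := ⟨Nat.prime_two⟩
  obtain ⟨T, hT, l⟩ := exists_syl_ge (M := ⊤) h.pg le_top
  have t : normalClosure {z} = ⊤ := by
    have := (hT.mono ((h.le_c1_of_pg hT.pg l).trans hM) le_top).frattini_sup le_top le_normalizer_of_normal
    rwa [sup_eq_left.2 (inf_le_right.trans ((h.norm_le_of_pg hT.pg l).trans hM))] at this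
  haveI : Nontrivial G := ⟨z, 1, ne_one_of_two h.ord⟩
  exact ⟨fun X _ => (em _).imp_right fun k => eq_top_iff.2 (t.ge.trans (normalClosure_le_normal (Set.singleton_subset_iff.2 (h.mem_of_norm hl k le_normalizer_of_normal))))⟩

theorem LX.large_of_conj (h : LX Q z) (hx : g * z * g⁻¹ ∈ Q) (h1 : g * z * g⁻¹ ≠ z) : IsLargeExtraspecial Q := by
  have k := h.map_cj g
  refine h.large_of_core hx (fun e => ((mem_zp2 h.ord).1 e).elim (ne_one_of_two k.ord) h1) (mul_self_of_two k.ord) ?_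
  exact le_pCoreOf k.le_c1 k.norm k.pg (h.symm hx)

end CfsgH1
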