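import Mathlib
import Cfsg.Agent.H2.KThm
import Cfsg.Agent.H2.Stab
import Cfsg.Agent.H2.BG0
import Cfsg.Agent.H2.Trans
import Cfsg.Agent.H1.Frattini
import Cfsg.Agent.H2.FT
import Cfsg.Agent.H1.Frob
import Cfsg.Agent.H3.Thompson

/-! Nilpotent maximal invariant subgroups with Sylow 2-subgroups of class at most two. -/

set_option autoImplicit false
open Cfsg Subgroup CfsgH2 Function
open scoped commutatorElement

namespace CfsgH1
universe u
variable {G : Type u} [Group G]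

theorem dih_alt [Finite G] {a b : G} (ha : a * a = 1) (hb : b * b = 1) :
    (∃ k : ℕ, (a * b) ^ k * b * ((a * b) ^ k)⁻¹ = a) ∨
      ∃ k : ℕ, (a * b) ^ k ≠ 1 ∧ (a * b) ^ k * (a * b) ^ k = 1 ∧ Commute a ((a * b) ^ k) ∧
        Commute b ((a * b) ^ k) := by
  have ia : a⁻¹ = a := inv_eq_of_mul_eq_one_right ha
  have ib : b⁻¹ = b := inv_eq_of_mul_eq_one_right hb
  have e1 : ∀ k : ℕ, b * (a * b) ^ k = ((a * b) ^ k)⁻¹ * b := fun k => by
    have : b * (a * b) * b⁻¹ = (a * b)⁻¹ := by rw [mul_inv_rev, ia, mul_assoc, mul_assoc, mul_inv_cancel, mul_one, ib]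
    rw [← inv_pow, ← this, conj_pow]; group
  have e2 : ∀ k : ℕ, a * (a * b) ^ k = ((a * b) ^ k)⁻¹ * a := fun k => by
    have : a * (a * b) * a⁻¹ = (a * b)⁻¹ := by rw [mul_inv_rev, ia, ib, ← mul_assoc, ha, one_mul]
    rw [← inv_pow, ← this, conj_pow]; group
  rcases Nat.even_or_odd' (orderOf (a * b)) with ⟨k, hk | hk⟩
  · right
    have h0 := orderOf_pos (a * b)
    have h1 : (a * b) ^ k * (a * b) ^ k = 1 := by rw [← pow_add, ← two_mul, ← hk, pow_orderOf_eq_one]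
    have h2 := inv_eq_of_mul_eq_one_right h1
    exact ⟨k, pow_ne_one_of_lt_orderOf (by omega) (by omega), h1, by rw [Commute, SemiconjBy, e2, h2],
      by rw [Commute, SemiconjBy, e1, h2]⟩
  · left
    refine ⟨k + 1, ?_⟩
    have h1 : (a * b) ^ (k + 1) * (a * b) ^ (k + 1) = a * b := by
      rw [← pow_add, show k + 1 + (k + 1) = orderOf (a * b) + 1 by omega, pow_succ, pow_orderOf_eq_one, one_mul]
    have h2 : b * ((a * b) ^ (k + 1))⁻¹ = (a * b) ^ (k + 1) * b := by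
      rw [mul_inv_eq_iff_eq_mul, mul_assoc, e1]; group
    rw [mul_assoc, h2, ← mul_assoc, h1, mul_assoc, hb, mul_one]

variable [Finite G] {K L S E E₁ E₂ E₃ : Subgroup G}

structure MN (K L S : Subgroup G) : Prop where
  nK : K.Normal
  nil : Nil[L ⊓ K]
  syl : Syl 2 S K
  sL : S ≤ L
  nS : L ≤ N[S]
  cl : ⁅S, S⁆ ≤ C[S]
  ne : S ≠ ⊥
  hN : ∀ X, X ≤ S → X ≠ ⊥ → L ≤ N[X] → N[X] ≤ L
  odd : ∀ a ∈ L, ∃ n, a ^ (2 * n + 1) ∈ K

structure MG (K L S E : Subgroup G) : Prop where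
  z : Z[S] ≤ E
  le : E ≤ S
  ti : ∀ m ∈ K, m ∈ N[E] → ∀ x ∈ S, x ∉ E → m * x * m⁻¹ ∈ S → m ∈ L
  ex : ∃ n ∈ K, n ∈ N[E] ∧ n ∉ L

namespace MN

theorem mem (h : MN K L S) {x : G} (h1 : x ∈ L) (h2 : x ∈ K) {k : ℕ} (h3 : x ^ 2 ^ k = 1) : x ∈ S :=
  (h.syl.mono (le_inf h.sL h.syl.le) inf_le_right).mem_of_norm (inf_le_left.trans h.nS) ⟨h1, h2⟩ h3

theorem cmem (h : MN K L S) {n x : G} (hn : n ∈ K) (hx : x ∈ S) (h1 : n * x * n⁻¹ ∈ L) :
    n * x * n⁻¹ ∈ S := by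
  obtain ⟨k, hk⟩ := pgroup_pow_eq_one h.syl.pg hx
  exact h.mem h1 (mul_mem (mul_mem hn (h.syl.le hx)) (inv_mem hn)) (k := k) (by rw [conj_pow, hk]; simp)

theorem cz (h : MN K L S) {x y : G} (hx : x ∈ S) (hy : y ∈ S) : ⁅x, y⁆ ∈ Z[S] :=
  ⟨commutator_self_le (commutator_mem_commutator hx hy), h.cl (commutator_mem_commutator hx hy)⟩

theorem nZ (h : MN K L S) : N[Z[S]] ≤ L :=
  h.hN _ inf_le_left (center_ne_bot h.syl.pg h.ne) (h.nS.trans norm_le_norm_center)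

theorem nO (h : MN K L S) : N[omegaOne 2 Z[S]] ≤ L :=
  h.hN _ (omegaOne_le.trans inf_le_left) (omegaOne_ne_bot Nat.prime_two
    (dvd_card_of_pgroup h.syl.pg.to_inf_left (center_ne_bot h.syl.pg h.ne)))
    (le_norm_omegaOne' (h.nS.trans norm_le_norm_center))

theorem cm (h : MN K L S) {m s : G} (h1 : m ∈ L) (h2 : m ∈ K) (hs : s ∈ S) : ⁅m, s⁆ ∈ Z[S] := by
  have h3 : m ∈ L ⊓ K := ⟨h1, h2⟩
  rw [← nil_sup_core (π := {2}) h.nil,
    (h.syl.mono (le_inf h.sL h.syl.le) inf_le_right).eq_core_of_nil h.nil,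
    mem_sup_of_norm ((le_inf h.sL h.syl.le).trans le_norm_piCoreOf)] at h3
  obtain ⟨a, ha, b, hb, rfl⟩ := h3
  have : b ∈ C[S] := by
    rw [← (h.syl.mono (le_inf h.sL h.syl.le) inf_le_right).eq_core_of_nil h.nil]
    exact le_centralizer_iff.1 piCoreOf_le_cent hb
  have e := mem_cent_iff.1 this s hs
  convert h.cz ha hs using 1
  rw [commutatorElement_def, commutatorElement_def, mul_assoc a b s, ← e]; group

theorem mul_left (h : MN K L S) {x y w : G} (hx : x ∈ S) (hy : y ∈ S) (hw : w ∈ S) :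
    ⁅x * y, w⁆ = ⁅x, w⁆ * ⁅y, w⁆ := by
  have e := mem_cent_iff.1 (h.cz hy hw).2 x hx
  have e2 := mem_cent_iff.1 (h.cz hy hw).2 _ (h.cz hx hw).1
  rw [e2, commutatorElement_def x, ← mul_assoc, ← mul_assoc, ← mul_assoc, ← e]
  simp only [commutatorElement_def]; group

theorem mul_right (h : MN K L S) {x y w : G} (hx : x ∈ S) (hy : y ∈ S) (hw : w ∈ S) :
    ⁅w, x * y⁆ = ⁅w, x⁆ * ⁅w, y⁆ := by
  rw [← commutatorElement_inv, h.mul_left hx hy hw, mem_cent_iff.1 (h.cz hy hw).2 _ (h.cz hx hw).1,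
    mul_inv_rev, commutatorElement_inv, commutatorElement_inv]

theorem exists_mg (h : MN K L S) {g : G} (hg : g ∈ K) (h1 : Z[S].map (cj g) ≤ S)
    (h2 : Z[S].map (cj g) ≠ Z[S]) : ∃ E, MG K L S E := by
  obtain ⟨E, -, ⟨g, gK, gL, gZ, rfl⟩, hmax⟩ := exists_maximal_ge
    (fun E => ∃ g ∈ K, g ∉ L ∧ Z[S] ≤ S.map (cj g) ∧ E = S ⊓ S.map (cj g)) (H := S ⊓ S.map (cj g⁻¹))
    ⟨g⁻¹, inv_mem hg, fun e => h2 (map_cj_eq ((h.nS.trans norm_le_norm_center) (by simpa using inv_mem e))),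
      map_cj_le_iff.1 h1, rfl⟩
  refine ⟨S ⊓ S.map (cj g), le_inf inf_le_left gZ, inf_le_left, fun m mK mN x xS xE hx => ?_, ?_⟩
  · by_contra mL
    have e1 : S ⊓ S.map (cj g) ≤ S.map (cj m⁻¹) := map_cj_le_iff.1 ((map_cj_eq mN).le.trans inf_le_left)
    have := hmax (S ⊓ S.map (cj m⁻¹)) ⟨m⁻¹, inv_mem mK, fun e => mL (by simpa using inv_mem e),
      (le_inf inf_le_left gZ).trans e1, rfl⟩ (le_inf inf_le_left e1)
    exact xE (this ▸ ⟨xS, mem_map_cj.2 (by simpa using hx)⟩)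
  · have hQ := h.syl.map_cj_mem gK
    have : S ⊓ S.map (cj g) < S.map (cj g) := lt_of_le_of_ne inf_le_right fun e =>
      gL (h.hN S le_rfl h.ne h.nS (mem_norm_of_map_le (e.ge.trans inf_le_left)))
    obtain ⟨n, ⟨n1, n2⟩, n3⟩ := SetLike.exists_of_lt (lt_inf_norm (nil_of_pg hQ.pg) this)
    obtain ⟨k, hk⟩ := pgroup_pow_eq_one hQ.pg n1
    exact ⟨n, hQ.le n1, n2, fun e => n3 ⟨h.mem e (hQ.le n1) hk, n1⟩⟩

theorem mg_cj (h : MN K L S) (e : MG K L S E) {a : G} (ha : a ∈ L) : MG K L S (E.map (cj a)) := by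
  haveI := h.nK
  refine ⟨?_, map_cj_le_of_norm e.le (h.nS ha), fun m mK mN x xS xE hx => ?_, ?_⟩
  · rw [← map_cj_eq ((h.nS.trans norm_le_norm_center) ha)]; exact map_mono e.z
  · rw [normalizer_map_cj, mem_map_cj] at mN
    have := e.ti _ (h.nK.conj_mem' m mK a) mN (a⁻¹ * x * a) (conj_mem_of_norm' (h.nS ha) xS)
      (fun e => xE (mem_map_cj.2 e)) (by convert conj_mem_of_norm' (h.nS ha) hx using 1; group)
    simpa [mul_assoc] using mul_mem (mul_mem ha this) (inv_mem ha)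
  · obtain ⟨n, n1, n2, n3⟩ := e.ex
    refine ⟨a * n * a⁻¹, h.nK.conj_mem n n1 a, by rw [normalizer_map_cj]; exact conj_mem_map_cj n2,
      fun e => n3 ?_⟩
    simpa [mul_assoc] using mul_mem (mul_mem (inv_mem ha) e) ha

theorem zz (e : MG K L S E) : Z[S] ≤ Z[E] := le_inf e.z (inf_le_right.trans (cent_anti e.le))

theorem cent (h : MN K L S) (e : MG K L S E) {c : G} (hc : c ∈ S)
    (h1 : ∀ v ∈ Z[E], v ^ 2 = 1 → v * c = c * v) : c ∈ E := by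
  by_contra cE
  obtain ⟨n, n1, n2, n3⟩ := e.ex
  refine n3 (e.ti n n1 n2 c hc cE (h.cmem n1 hc (h.nO (cent_le_norm _ ?_))))
  refine le_cent1_iff.1 <| omegaOne_le_of fun v hv v2 => mem_centralizer_singleton_iff.2 ?_
  have := h1 _ (conj_mem_of_norm' (norm_le_norm_center n2) (zz e hv)) (by
    rw [← inv_inv n, inv_inv n⁻¹, conj_pow, v2]; simp)
  calc v * (n * c * n⁻¹) = n * (n⁻¹ * v * n * c) * n⁻¹ := by group
    _ = _ := by rw [this]; group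

theorem sq (h : MN K L S) (e : MG K L S E) {t : G} (ht : t ∈ S) : t * t ∈ E := by
  refine h.cent e (mul_mem ht ht) fun v hv v2 => ?_
  have vS := e.le hv.1
  rw [← commutatorElement_eq_one_iff_mul_comm, h.mul_right ht ht vS, ← h.mul_left vS vS ht, ← pow_two, v2,
    commutatorElement_one_left]

theorem nE (h : MN K L S) (e : MG K L S E) {m : G} (h1 : m ∈ L) (h2 : m ∈ K) : m ∈ N[E] :=
  mem_norm_of_conj fun x hx => by
    simpa [commutatorElement_def] using mul_mem (e.z (h.cm h1 h2 (e.le hx))) hx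

theorem two (h : MN K L S) (e : MG K L S E) {s t : G} (hs : s ∈ S) (sE : s ∉ E) (ht : t ∈ S)
    (tE : t ∉ E) : s * t ∈ E := by
  obtain ⟨n, n1, n2, n3⟩ := e.ex
  have sN := h.nE e (h.sL hs) (h.syl.le hs)
  have tN := h.nE e (h.sL ht) (h.syl.le ht)
  let a : N[E] := ⟨s, sN⟩
  let b : N[E] := ⟨n * t * n⁻¹, mul_mem (mul_mem n2 tN) (inv_mem n2)⟩
  have bK : ∀ k : ℕ, (((a * b) ^ k : N[E]) : G) ∈ K := fun k =>
    pow_mem (mul_mem (h.syl.le hs) (h.nK.conj_mem' _ (h.syl.le ht) n⁻¹ |> fun e => by simpa using e)) k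
  have key : ∀ c x : G, c ∈ K → c ∈ N[E] → c * c ∈ E → x ∈ S → x ∉ E → x * c * (c * x)⁻¹ ∈ E → c ∈ S := by
    intro c x c1 c2 c3 x1 x2 x3
    obtain ⟨k, hk⟩ := pgroup_pow_eq_one h.syl.pg (e.le c3)
    refine h.mem (e.ti c c1 c2 x x1 x2 ?_) c1 (k := k + 1) (by rw [pow_succ', pow_mul, pow_two, hk])
    convert mul_mem (inv_mem (e.le x3)) x1 using 1; group
  rcases dih_alt (a := qmk E a) (b := qmk E b) (by rw [← map_mul, qmk_eq_one]; exact h.sq e hs)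
    (by rw [← map_mul, qmk_eq_one]; convert conj_mem_of_norm n2 (h.sq e ht) using 1; simp [b, mul_assoc])
    with ⟨k, hk⟩ | ⟨k, k1, k2, k3, k4⟩
  · rw [← map_mul, ← map_pow, ← map_inv, ← map_mul, ← map_mul, qmk_eq_iff'] at hk
    set m : G := (((a * b) ^ k : N[E]) : G) with hm
    have mN : m ∈ N[E] := ((a * b) ^ k).2
    have hk' : m * n * t * (m * n)⁻¹ * s⁻¹ ∈ E := by convert hk using 1; simp [hm, a, b, mul_assoc]
    have h1 := e.ti (m * n) (mul_mem (bK k) n1) (mul_mem mN n2) t ht tE (by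
      simpa using mul_mem (e.le hk') hs)
    have h2 := e.z (h.cm h1 (mul_mem (bK k) n1) ht)
    convert mul_mem (mul_mem (inv_mem hk') h2) (h.sq e ht) using 1
    rw [commutatorElement_def]; group
  · exfalso
    rw [← map_mul, ← map_pow] at k1 k2 k3 k4
    rw [← map_mul, qmk_eq_one] at k2
    rw [Commute, SemiconjBy, ← map_mul, ← map_mul, qmk_eq_iff'] at k3 k4
    rw [Ne, qmk_eq_one] at k1
    set c : G := (((a * b) ^ k : N[E]) : G) with hc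
    have cN : c ∈ N[E] := ((a * b) ^ k).2
    have c1 : c ∈ S := key c s (bK k) cN k2 hs sE k3
    have c2 : n⁻¹ * c * n ∈ S := key _ t (h.nK.conj_mem' _ (bK k) n) (mul_mem (mul_mem (inv_mem n2) cN) n2)
      (by convert conj_mem_of_norm' n2 k2 using 1; simp [hc, mul_assoc]) ht tE
      (by convert conj_mem_of_norm' n2 k4 using 1; simp [hc, b, mul_assoc])
    exact n3 (by simpa using inv_mem (e.ti n⁻¹ (inv_mem n1) (inv_mem n2) c c1 k1 (by simpa using c2)))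

/-- adjacency -/
def Ad (E₁ E₂ : Subgroup G) : Prop := ∃ t ∈ Z[E₂], t ∉ E₁

theorem ad_z (h : MN K L S) (e₁ : MG K L S E₁) (e₂ : MG K L S E₂) (a : Ad E₁ E₂) {v : G}
    (h1 : v ∈ Z[E₁]) (h2 : v ∈ E₂) : v ∈ Z[S] := by
  obtain ⟨t, t1, t2⟩ := a
  refine ⟨e₁.le h1.1, mem_cent_iff.2 fun s hs => ?_⟩
  by_cases hE : s ∈ E₁
  · exact mem_cent_iff.1 h1.2 s hE
  · have e1 := mem_cent_iff.1 h1.2 _ (h.two e₁ hs hE (e₂.le t1.1) t2)
    have e2 := mem_cent_iff.1 t1.2 _ h2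
    rw [mul_assoc, ← e2, ← mul_assoc, ← mul_assoc] at e1
    exact mul_right_cancel e1

theorem ad_symm (h : MN K L S) (e₁ : MG K L S E₁) (e₂ : MG K L S E₂) (a : Ad E₁ E₂) : Ad E₂ E₁ := by
  by_contra hc
  obtain ⟨t, t1, t2⟩ := id a
  refine t2 (h.cent e₁ (e₂.le t1.1) fun v hv _ => ?_)
  exact (mem_cent_iff.1 (h.ad_z e₁ e₂ a hv (by_contra fun e => hc ⟨v, hv, e⟩)).2 t (e₂.le t1.1)).symm

structure Pk (S E : Subgroup G) (z t : G) : Prop where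
  t1 : t ∈ Z[E]
  t2 : t ∉ Z[S]
  t3 : t * t = 1
  z1 : z ≠ 1
  z2 : z * z = 1
  cm : ∀ u ∈ Z[E], u ∉ Z[S] → ∀ s ∈ S, s ∉ E → ⁅s, u⁆ = z
  n1 : ∀ x ∈ E, ∀ y ∈ E, ⁅x, y⁆ ≠ z
  n2 : ∀ v ∈ Z[E], v * v ≠ z

theorem pk (h : MN K L S) (e₁ : MG K L S E₁) (e₂ : MG K L S E₂) (a : Ad E₁ E₂) :
    ∃ z t, Pk S E₁ z t := by
  obtain ⟨u, u1, u2⟩ := h.ad_symm e₁ e₂ a
  obtain ⟨t, t1, t2⟩ := id a
  have tS := e₂.le t1.1
  have uS := e₁.le u1.1
  have i2 : ∀ v ∈ Z[E₁], v ∉ Z[S] → ∀ w ∈ Z[E₁], w ∉ Z[S] → v * w ∈ Z[S] := fun v v1 v2 w w1 w2 =>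
    h.ad_z e₁ e₂ a (mul_mem v1 w1) (h.two e₂ (e₁.le v1.1) (fun e => v2 (h.ad_z e₁ e₂ a v1 e))
      (e₁.le w1.1) (fun e => w2 (h.ad_z e₁ e₂ a w1 e)))
  have uZ : u ∉ Z[S] := fun e => u2 (e₂.z e)
  have c0 : ∀ s ∈ S, ∀ v ∈ Z[S], ⁅s, v⁆ = 1 := fun s hs v hv =>
    commutatorElement_eq_one_iff_mul_comm.2 (mem_cent_iff.1 hv.2 s hs)
  have c1 : ∀ s ∈ E₁, ∀ v ∈ Z[E₁], ⁅s, v⁆ = 1 := fun s hs v hv =>
    commutatorElement_eq_one_iff_mul_comm.2 (mem_cent_iff.1 hv.2 s hs)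
  have z2 : ⁅t, u⁆ * ⁅t, u⁆ = 1 := by rw [← h.mul_right uS uS tS, c0 t tS _ (i2 u u1 uZ u u1 uZ)]
  have cm : ∀ v ∈ Z[E₁], v ∉ Z[S] → ∀ s ∈ S, s ∉ E₁ → ⁅s, v⁆ = ⁅t, u⁆ := by
    intro v v1 v2 s s1 s2
    have e1 := c1 _ (h.two e₁ s1 s2 tS t2) v v1
    have e2 := c0 t tS _ (i2 v v1 v2 u u1 uZ)
    rw [h.mul_left s1 tS (e₁.le v1.1)] at e1
    rw [h.mul_right (e₁.le v1.1) uS tS] at e2
    rw [← mul_one ⁅s, v⁆, ← e2, ← mul_assoc, e1, one_mul]
  have zZ := h.cz tS uS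
  have key : ∀ n ∈ K, n ∈ N[E₁] → n ∉ L → n * ⁅t, u⁆ * n⁻¹ ∉ Z[S] := by
    intro n n1 n2 n3 hz
    refine n3 (e₁.ti n n1 n2 t tS t2 (h.cmem n1 tS (h.nZ (mem_norm_of_conj fun ζ hζ => ?_))))
    have h1 := conj_mem_of_norm' (norm_le_norm_center n2) (zz e₁ hζ)
    have e : n * t * n⁻¹ * ζ * (n * t * n⁻¹)⁻¹ = n * ⁅t, n⁻¹ * ζ * n⁆ * n⁻¹ * ζ := by
      rw [commutatorElement_def]; group
    rw [e]
    by_cases h2 : n⁻¹ * ζ * n ∈ Z[S]
    · simpa [c0 t tS _ h2] using hζ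
    · rw [cm _ h1 h2 t tS t2]; exact mul_mem hz hζ
  obtain ⟨n, n1, n2, n3⟩ := e₁.ex
  refine ⟨⁅t, u⁆, n * ⁅t, u⁆ * n⁻¹, conj_mem_of_norm (norm_le_norm_center n2) (zz e₁ zZ), key n n1 n2 n3,
    by rw [← pow_two, conj_pow, pow_two, z2]; simp, fun e => key n n1 n2 n3 (by simp [e]), z2, cm,
    fun x hx y hy e => key n n1 n2 n3 ?_, fun v hv e => key n n1 n2 n3 ?_⟩
  · rw [← e]
    convert h.cz (e₁.le (conj_mem_of_norm n2 hx)) (e₁.le (conj_mem_of_norm n2 hy)) using 1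
    simp only [commutatorElement_def]; group
  · rw [← e]
    have h1 := conj_mem_of_norm (norm_le_norm_center n2) hv
    rw [show n * (v * v) * n⁻¹ = n * v * n⁻¹ * (n * v * n⁻¹) by group]
    by_cases h2 : n * v * n⁻¹ ∈ Z[S]
    · exact mul_mem h2 h2
    · exact i2 _ h1 h2 _ h1 h2

theorem Pk.or {z t s : G} (p : Pk S E z t) (hs : s ∈ S) : ⁅s, t⁆ = 1 ∨ ⁅s, t⁆ = z := by
  by_cases h : s ∈ E
  · exact .inl (commutatorElement_eq_one_iff_mul_comm.2 (mem_cent_iff.1 p.t1.2 s h))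
  · exact .inr (p.cm t p.t1 p.t2 s hs h)

theorem ad_uniq (h : MN K L S) (e₁ : MG K L S E₁) (e₂ : MG K L S E₂) (e₃ : MG K L S E₃)
    (a : Ad E₁ E₂) (b : Ad E₁ E₃) : E₂ ≤ E₃ := by
  obtain ⟨z, t1, p1⟩ := h.pk e₁ e₂ a
  obtain ⟨z2, t2, p2⟩ := h.pk e₂ e₁ (h.ad_symm e₁ e₂ a)
  obtain ⟨z3, t3, p3⟩ := h.pk e₃ e₁ (h.ad_symm e₁ e₃ b)
  have s1 := e₁.le p1.t1.1
  have s2 := e₂.le p2.t1.1
  have s3 := e₃.le p3.t1.1
  have n2 : t2 ∉ E₁ := fun e => p2.t2 (h.ad_z e₂ e₁ (h.ad_symm e₁ e₂ a) p2.t1 e)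
  have n3 : t3 ∉ E₁ := fun e => p3.t2 (h.ad_z e₃ e₁ (h.ad_symm e₁ e₃ b) p3.t1 e)
  have iz := inv_eq_of_mul_eq_one_right p1.z2
  obtain rfl : z = z2 := by
    rw [← p2.cm t2 p2.t1 p2.t2 t1 s1 (fun e => p1.t2 (h.ad_z e₁ e₂ a p1.t1 e)), ← commutatorElement_inv,
      p1.cm t1 p1.t1 p1.t2 t2 s2 n2, iz]
  obtain rfl : z = z3 := by
    rw [← p3.cm t3 p3.t1 p3.t2 t1 s1 (fun e => p1.t2 (h.ad_z e₁ e₃ b p1.t1 e)), ← commutatorElement_inv,
      p1.cm t1 p1.t1 p1.t2 t3 s3 n3, iz]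
  have y1 := h.two e₁ s2 n2 s3 n3
  have y2 : t2 * t3 ∈ Z[E₁] := ⟨y1, mem_cent_iff.2 fun x hx => by
    have := p1.n1 x hx _ y1
    rw [← commutatorElement_eq_one_iff_mul_comm]
    rw [h.mul_right s2 s3 (e₁.le hx)] at this ⊢
    rcases p2.or (e₁.le hx) with e | e <;> rcases p3.or (e₁.le hx) with e' | e' <;>
      simp_all [p1.z2]⟩
  have y3 : ⁅t2, t3⁆ = 1 := (p3.or s2).resolve_right fun e => p1.n2 _ y2 (by
    rw [← e, commutatorElement_def, inv_eq_of_mul_eq_one_right p2.t3, inv_eq_of_mul_eq_one_right p3.t3]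
    group)
  have y4 : t2 * t3 ∈ Z[S] := by_contra fun e => p1.z1 (by
    rw [← p1.cm _ y2 e t2 s2 n2, h.mul_right s2 s3 s2, y3]; simp)
  intro s hs
  by_contra hc
  have e1 := commutatorElement_eq_one_iff_mul_comm.2 (mem_cent_iff.1 y4.2 s (e₂.le hs))
  rw [h.mul_right s2 s3 (e₂.le hs), commutatorElement_eq_one_iff_mul_comm.2 (mem_cent_iff.1 p2.t1.2 s hs),
    one_mul, p3.cm t3 p3.t1 p3.t2 s (e₂.le hs) hc] at e1
  exact p1.z1 e1

theorem not_mg (h : MN K L S) (e : MG K L S E) : False := by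
  have zc : ∀ (X : Subgroup G) (a : G), Z[X.map (cj a)] = Z[X].map (cj a) := fun X a => by
    rw [centralizer_map_cj, map_cj_inf]
  by_cases hc : ∃ a ∈ L, Ad E (E.map (cj a))
  · obtain ⟨a, ha, ad⟩ := hc
    have e2 := h.mg_cj e ha
    have e3 := h.mg_cj e2 ha
    have ad2 : Ad (E.map (cj a)) ((E.map (cj a)).map (cj a)) := by
      obtain ⟨t, t1, t2⟩ := ad
      exact ⟨a * t * a⁻¹, by rw [zc]; exact conj_mem_map_cj t1, fun e => t2 (by simpa [mul_assoc] using mem_map_cj.1 e)⟩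
    have := h.ad_uniq e2 e3 e ad2 (h.ad_symm e e2 ad)
    rw [map_cj_cj] at this
    obtain ⟨n, hn⟩ := h.odd a ha
    have h1 := mul_mem (inv_mem (pow_mem (mem_norm_of_map_le this) n)) (h.nE e (pow_mem ha _) hn)
    rw [← pow_two, ← pow_mul, pow_succ, inv_mul_cancel_left] at h1
    obtain ⟨t, t1, t2⟩ := ad
    rw [map_cj_eq h1] at t1
    exact t2 t1.1
  · let W := closure {x : G | ∃ a ∈ L, a⁻¹ * x * a ∈ Z[E]}
    have w1 : W ≤ E := (closure_le _).2 fun x ⟨a, ha, hx⟩ => by_contra fun e =>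
      hc ⟨a, ha, x, by rw [zc]; exact mem_map_cj.2 hx, e⟩
    have w2 : Z[E] ≤ W := fun x hx => subset_closure ⟨1, one_mem _, by simpa using hx⟩
    have w3 : N[W] ≤ L := h.hN W (w1.trans e.le)
      (fun e0 => center_ne_bot h.syl.pg h.ne (le_bot_iff.1 ((zz e).trans (w2.trans e0.le)))) fun b hb => by
        refine mem_norm_of_map_le ?_
        rw [MonoidHom.map_closure]
        refine closure_mono ?_
        rintro _ ⟨x, ⟨a, ha, hx⟩, rfl⟩
        exact ⟨b * a, mul_mem hb ha, by simpa [mul_assoc] using hx⟩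
    obtain ⟨n, n1, n2, n3⟩ := e.ex
    obtain ⟨t, t1, t2⟩ := SetLike.exists_of_lt (lt_of_le_of_ne e.le fun e0 =>
      n3 (h.hN S le_rfl h.ne h.nS (e0 ▸ n2)))
    refine n3 (e.ti n n1 n2 t t1 t2 (h.cmem n1 t1 (w3 (mem_norm_of_conj fun w hw => ?_))))
    have := w2 (conj_mem_of_norm (norm_le_norm_center n2)
      (zz e (h.cz t1 (e.le (conj_mem_of_norm' n2 (w1 hw))))))
    convert mul_mem this hw using 1
    rw [commutatorElement_def]; group

theorem npc (h : MN K L S) : NPC 2 K := by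
  have hW : ∀ g ∈ K, Z[S].map (cj g) ≤ S → Z[S].map (cj g) = Z[S] := fun g hg h1 => by_contra fun h2 =>
    let ⟨_, e⟩ := h.exists_mg hg h1 h2; h.not_mg e
  refine h.syl.npc_of_control (NPC.of_nilpotent h.nil) (le_inf h.sL h.syl.le) inf_le_right
    fun x hx u hu hux => ?_
  obtain ⟨v, hv, e⟩ := h.syl.fusion_weakly_closed inf_le_left inf_le_right hW hx hu hux
  exact ⟨v, ⟨h.nZ hv.2, hv.1⟩, e⟩

end MN

theorem sol_mn (n : ℕ) : ∀ (G : Type u) [Group G] [Finite G] (K L : Subgroup G), Nat.card G = n →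
    K.Normal → IsCoatom L → ¬ K ≤ L → Nil[L ⊓ K] → ⁅O[{2}, L ⊓ K], O[{2}, L ⊓ K]⁆ ≤ C[O[{2}, L ⊓ K]] →
    o[K].Coprime K.index → Sol[K] := by
  induction n using Nat.strong_induction_on with | _ n ih => ?_
  intro G _ _ K L hn nK hL hKL hnil h2 hco
  by_cases hc : ∃ N : Subgroup G, N.Normal ∧ N ≠ ⊥ ∧ N ≤ L ⊓ K
  · obtain ⟨N, _, h0, hN⟩ := hc
    have e : L.map (QuotientGroup.mk' N) ⊓ K.map (QuotientGroup.mk' N) = (L ⊓ K).map (QuotientGroup.mk' N) := by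
      rw [← map_inf_comap, comap_map_mk', sup_eq_left.2 (hN.trans inf_le_right)]
    have h1 := ih _ (hn ▸ card_quot_lt h0) (G ⧸ N) (K.map (QuotientGroup.mk' N)) (L.map (QuotientGroup.mk' N)) rfl
      (normal_map_mk' N K)
      (isCoatom_map_of_ker_le (QuotientGroup.mk'_surjective N) hL (by
        rw [QuotientGroup.ker_mk']; exact hN.trans inf_le_left))
      (by rw [map_mk'_le_iff, sup_eq_left.2 (hN.trans inf_le_left)]; exact hKL)
      (e ▸ CfsgH2.isNilpotent_map _ hnil) (by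
        rw [e, ((nil_syl_core hnil).map _).eq_core_of_nil (CfsgH2.isNilpotent_map _ hnil)]
        rw [← comm_eq_bot_iff] at h2 ⊢
        rw [← map_commutator, ← map_commutator, h2, Subgroup.map_bot])
      (by rw [index_map_mk', sup_eq_left.2 (hN.trans inf_le_right)]
          exact hco.coprime_dvd_left (card_map_dvd _ _))
    haveI : Group.IsSolvable N := isSolvable_of_nilpotent (CfsgH2.isNilpotent_of_le hnil hN)
    exact isSolvable_of_map_mk' (N := N)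
  set M := L ⊓ K with hM
  have nM : L ≤ N[M] := le_norm_inf le_normalizer (le_top.trans (top_le_norm_iff.2 nK))
  have hN : ∀ X, X ≤ M → X ≠ ⊥ → L ≤ N[X] → N[X] = L := fun X h1 h2 h3 =>
    ((hL.le_iff.1 h3).resolve_left fun e => hc ⟨X, top_le_norm_iff.1 e.ge, h2, h1⟩)
  have hS : ∀ (p : ℕ) [Fact p.Prime], p ∣ o[M] → Syl p O[{p}, M] K := fun p _ hd =>
    Syl.of_norm (piCoreOf_le.trans inf_le_right) (by
      rw [hN _ piCoreOf_le ((nil_syl_core hnil).ne_bot hd) (le_norm_piCoreOf' nM), inf_comm]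
      exact nil_syl_core hnil)
  have hnpc : ∀ (p : ℕ) (_ : Fact p.Prime), p ∣ o[M] → NPC p K := by
    intro p hp hd
    have sS := hS p hd
    have S0 := (nil_syl_core hnil).ne_bot hd
    by_cases p2 : p = 2
    · subst p2
      refine MN.npc (L := L) ⟨nK, hnil, sS, piCoreOf_le.trans inf_le_left, le_norm_piCoreOf' nM, h2, S0,
        fun X h1 h2 h3 => (hN X (h1.trans piCoreOf_le) h2 h3).le, fun a _ => ?_⟩
      obtain ⟨k, hk⟩ : Odd K.index := Nat.coprime_two_left.1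
        (hco.coprime_dvd_left (hd.trans (card_dvd_of_le inf_le_right)))
      exact ⟨k, hk ▸ K.pow_index_mem a⟩
    · refine CfsgH3.npc_of_kL p2 sS ?_
      rw [hN _ (kL_le.trans piCoreOf_le) (fun e => center_ne_bot sS.pg S0 (le_bot_iff.1 (center_le_kL.trans e.le)))
        ((le_norm_piCoreOf' nM).trans norm_le_norm_kL), inf_comm]
      exact NPC.of_nilpotent hnil
  have hH := hall_piRes_of_npc (M := K) (π := {p | p ∣ o[M]}) fun p hp h1 _ => hnpc p hp h1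
  set R := piRes {p | p ∣ o[M]} K
  have hLR : L ≤ N[R] := (le_top.trans (top_le_norm_iff.2 nK)).trans norm_le_norm_piRes
  have hcop : o[M].Coprime o[R] := PiN.coprime PiN.self hH.pi
  by_cases K0 : R = ⊥
  · refine absurd (le_of_syl fun p hp hd => ⟨_, hS p ?_, piCoreOf_le.trans inf_le_left⟩) hKL
    have := hH.pi'
    rw [K0, compl_compl, relIndex_bot_left] at this
    exact this p hp.out hd
  · obtain ⟨q, hq, hd⟩ := exists_prime_dvd_card K0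
    haveI := Fact.mk hq
    have hc2 : o[L].Coprime o[R] := by
      rw [← CfsgH2.card_inf_mul_relIndex K L, inf_comm]
      exact hcop.mul_left ((hco.symm.coprime_dvd_left (relIndex_dvd_index_of_normal K L)).coprime_dvd_right
        (card_dvd_of_le hH.le))
    obtain ⟨Q, hQ, hn⟩ := exists_inv_syl q hLR hc2 (sol_or hc2)
    have := isSolvable_sup (isSolvable_of_nilpotent hnil) (isSolvable_of_pgroup hQ.pg) (inf_le_left.trans hn)
    rwa [← sup_inf_of_norm' (.inl hn) (hQ.le.trans hH.le),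
      hL.2 (L ⊔ Q) (lt_of_le_of_ne le_sup_left fun e => hQ.ne_bot hd ?_), top_inf_eq] at this
    exact le_bot_iff.1 ((le_inf (le_sup_right.trans e.ge) hQ.le).trans (inf_eq_bot_of_coprime' hc2).le)

end CfsgH1
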