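import Cfsg.Agent.H1.LX
import Cfsg.Agent.H4.ZS2
import Cfsg.Agent.H8.SL2n

/-! The 2-structure of a central product of two copies of `SL₂(q)`, `q` odd. -/

set_option autoImplicit false

namespace CfsgH1

open Subgroup Cfsg CfsgH2 Function

variable {G : Type*} [Group G] [Finite G] {L L₁ L₂ : Subgroup G} {g j t u x y : G}

/-- `j` is the unique involution of `L`, and square roots of `j` lie in inverted cyclic subgroups of maximal height -/
structure SK (L : Subgroup G) (j : G) : Prop where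
  uq : ∀ y ∈ L, y * y = 1 → y = 1 ∨ y = j
  ex : ∃ x ∈ L, x * x = j
  ht : ∀ x ∈ L, x * x = j → ∃ a ∈ L, ∃ b ∈ L, ∃ k : ℕ, a ^ k = x ∧ b * b = j ∧ b * a * b⁻¹ = a⁻¹ ∧ ∀ y ∈ L, y ^ (4 * k) ≠ j

theorem sk_SL2 {F : Type*} [Field F] [Fintype F] (hF : Odd (Fintype.card F)) : SK (⊤ : Subgroup (Matrix.SpecialLinearGroup (Fin 2) F)) (-1) ∧ (-1 : Matrix.SpecialLinearGroup (Fin 2) F) ≠ 1 := by
  haveI : Fact (Nat.Prime 2) := ⟨Nat.prime_two⟩
  have hq := Nat.odd_iff.1 hF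
  have u : ∀ y : Matrix.SpecialLinearGroup (Fin 2) F, y * y = 1 → y = 1 ∨ y = -1 := fun y h => (em _).imp_right (CfsgH8.eq_neg_one_of_sq hq ((pow_two y).trans h))
  obtain ⟨z, hz⟩ := CfsgH8.exists_trace_zero (F := F)
  have o := CfsgH8.orderOf_of_trace_zero hq hz
  have z1 : z * z ≠ 1 := fun e => absurd (o ▸ orderOf_dvd_of_pow_eq_one ((pow_two z).trans e)) (by norm_num)
  have z2 : z * z = -1 := (u _ (by rw [← pow_two, ← pow_two, ← pow_mul]; exact (congrArg (z ^ ·) o.symm).trans (pow_orderOf_eq_one z))).resolve_left z1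
  have n1 : (-1 : Matrix.SpecialLinearGroup (Fin 2) F) ≠ 1 := z2 ▸ z1
  have od : ∀ (y : Matrix.SpecialLinearGroup (Fin 2) F) (i : ℕ), y ^ 2 ^ i = -1 → orderOf y = 2 ^ (i + 1) := fun y i h =>
    orderOf_eq_prime_pow (h ▸ n1) (by rw [pow_succ, pow_mul, h, neg_one_sq])
  have tr : ∀ y : Matrix.SpecialLinearGroup (Fin 2) F, y * y = -1 → y.1.trace = 0 := fun y h => CfsgH8.trace_of_orderOf_four hq (od y 1 ((pow_two y).trans h))
  obtain ⟨i, ⟨y, hy⟩, hi⟩ : ∃ i, (∃ y : Matrix.SpecialLinearGroup (Fin 2) F, y ^ 2 ^ (i + 1) = -1) ∧ ∀ y : Matrix.SpecialLinearGroup (Fin 2) F, y ^ 2 ^ (i + 2) ≠ -1 := by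
    by_contra! k
    have : ∀ i, ∃ y : Matrix.SpecialLinearGroup (Fin 2) F, y ^ 2 ^ (i + 1) = -1 := fun i => Nat.rec ⟨z, (pow_two z).trans z2⟩ k i
    obtain ⟨y, hy⟩ := this (Nat.card (Matrix.SpecialLinearGroup (Fin 2) F))
    exact absurd ((od y _ hy).symm.trans_le _root_.orderOf_le_card) (not_le.2 (lt_of_le_of_lt (by omega) Nat.lt_two_pow_self))
  refine ⟨⟨fun y _ => u y, ⟨z, trivial, z2⟩, fun x _ hx => ?_⟩, n1⟩
  have t := tr (y ^ 2 ^ i) (by rw [← pow_add, ← mul_two, ← pow_succ, hy])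
  obtain ⟨s, hs⟩ := isConj_iff.1 ((CfsgH8.reg_of_trace_zero hq t).isConj_SL (t.trans (tr x hx).symm))
  obtain ⟨N, hN⟩ := (CfsgH8.isTor_centralizer (CfsgH8.reg_of_trace_zero hq (tr x hx))).exists_N
  obtain ⟨b, hb, b1⟩ := hN.ex
  have e : (s * y * s⁻¹) ^ 2 ^ i = x := by rw [conj_pow, hs]
  exact ⟨_, trivial, b, trivial, _, e, hN.sq b hb b1, hN.inv b hb b1 _ (mem_centralizer_singleton_iff.2 (e ▸ (Commute.refl _).pow_right _)),
    fun y _ => by rw [show 4 * 2 ^ i = 2 ^ (i + 2) by ring]; exact hi y⟩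

theorem sk_of_equiv {F : Type*} [Field F] [Fintype F] (hF : Odd (Fintype.card F)) (e : L ≃* Matrix.SpecialLinearGroup (Fin 2) F) (hj : orderOf j = 2) (h : j ∈ L) : SK L j := by
  obtain ⟨k, -⟩ := sk_SL2 hF
  have ej : e ⟨j, h⟩ = -1 := (k.uq _ trivial (by rw [← map_mul, e.map_eq_one_iff]; exact Subtype.ext (mul_self_of_two hj))).resolve_left
    fun a => ne_one_of_two hj (congrArg Subtype.val (e.map_eq_one_iff.1 a))
  have v : ∀ {a b : L}, e a = e b → a.1 = b.1 := fun a => congrArg Subtype.val (e.injective a)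
  refine ⟨fun y hy a => (k.uq (e ⟨y, hy⟩) trivial (by rw [← map_mul, e.map_eq_one_iff]; exact Subtype.ext a)).imp (fun a => v (a.trans (map_one e).symm)) fun a => v (a.trans ej.symm), ?_, fun x hx a => ?_⟩
  · obtain ⟨x, -, hx⟩ := k.ex
    obtain ⟨x, rfl⟩ := e.surjective x
    exact ⟨x, x.2, v ((map_mul e x x).trans (hx.trans ej.symm))⟩
  · obtain ⟨a, -, b, -, i, h1, h2, h3, h4⟩ := k.ht (e ⟨x, hx⟩) trivial (by rw [← map_mul, ← ej]; exact congrArg e (Subtype.ext a))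
    obtain ⟨a, rfl⟩ := e.surjective a
    obtain ⟨b, rfl⟩ := e.surjective b
    exact ⟨a, a.2, b, b.2, i, v ((map_pow e a i).trans h1), v ((map_mul e b b).trans (h2.trans ej.symm)), v (a := b * a * b⁻¹) (b := a⁻¹) (by simp [h3]),
      fun y hy k => h4 (e ⟨y, hy⟩) trivial (by rw [← map_pow, ← ej]; exact congrArg e (Subtype.ext k))⟩

theorem SK.isolated (k₁ : SK L₁ j) (k₂ : SK L₂ j) (hc : L₁ ≤ C[L₂]) (hj : orderOf j = 2) (hm : L₁ ⊓ L₂ = zpowers j) (h : ∀ u ∈ C1[j], u * u = 1 → u ∈ L₁ ⊔ L₂) : IsIsolatedInvolution j := by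
  have c : ∀ {a b}, a ∈ L₁ → b ∈ L₂ → Commute a b := fun ha hb => (mem_cent_iff.1 (hc ha) _ hb).symm
  have jj := mul_self_of_two hj
  have j1 := (hm.ge (mem_zpowers j)).1
  have j2 := (hm.ge (mem_zpowers j)).2
  have key : ∀ {a b}, a ∈ L₁ → b ∈ L₂ → a * b * (a * b) = 1 → a * b ∈ zpowers j ∨ (a * a = j ∧ b * b = j) := fun {a b} ha hb e => by
    rw [← pow_two, (c ha hb).mul_pow, pow_two, pow_two, mul_eq_one_iff_eq_inv] at e
    rcases (mem_zp2 hj).1 (hm.le ⟨mul_mem ha ha, e ▸ L₂.inv_mem (mul_mem hb hb)⟩) with k | k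
    · exact .inl (mul_mem ((mem_zp2 hj).2 (k₁.uq a ha k)) ((mem_zp2 hj).2 (k₂.uq b hb (inv_eq_one.1 (e.symm.trans k)))))
    · exact .inr ⟨k, by rw [← inv_inj, ← e, k, inv_of_two hj]⟩
  refine ⟨hj, fun g hg => not_not.1 fun ne => ?_⟩
  have t1 : ∀ g : G, g * j * g⁻¹ ∈ zpowers j → g * j * g⁻¹ = j := fun g a => ((mem_zp2 hj).1 a).resolve_left fun a => ne_one_of_two hj (by simpa using a)
  have tt : g * j * g⁻¹ * (g * j * g⁻¹) = 1 := by rw [conj_mul, jj]; simp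
  obtain ⟨x, hx, y, hy, e⟩ := (mem_sup_of_norm (le_norm_of_le_cent hc)).1 (h _ (mem_centralizer_singleton_iff.2 hg.symm) tt)
  obtain ⟨x2, y2⟩ := (key hx hy (e ▸ tt)).resolve_left fun a => ne (t1 g (e ▸ a))
  obtain ⟨a, ha, b, hb, k, rfl, b2, b3, h4⟩ := k₁.ht x hx x2
  obtain ⟨a', ha', d, hd, k', rfl, d2, d3, -⟩ := k₂.ht y hy y2
  have m : ∀ w, Commute w (a ^ k * a' ^ k') → w * w = 1 → g⁻¹ * w * g ∈ L₁ ⊔ L₂ := fun w h1 h2 => h _ (mem_centralizer_singleton_iff.2 (by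
    have := h1.eq
    rw [e] at this
    calc g⁻¹ * w * g * j = g⁻¹ * (w * (g * j * g⁻¹)) * g := by group
      _ = _ := by rw [this]; group)) (by rw [mul_assoc, mul_assoc, ← mul_assoc g, ← mul_assoc g, mul_inv_cancel, one_mul, ← mul_assoc w, h2]; simp)
  have w1 : Commute (b * d) (a ^ k * a' ^ k') := by
    have p1 : b * a ^ k * b⁻¹ = a ^ k * j := by rw [← conj_pow, b3, inv_pow, inv_eq_iff_mul_eq_one, ← mul_assoc, x2, jj]
    have p2 : d * a' ^ k' * d⁻¹ = j * a' ^ k' := by rw [← conj_pow, d3, inv_pow, inv_eq_iff_mul_eq_one, ← mul_assoc, ← (c j1 (pow_mem ha' k')).eq, mul_assoc, y2, jj]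
    refine mul_inv_eq_iff_eq_mul.1 ?_
    calc b * d * (a ^ k * a' ^ k') * (b * d)⁻¹ = b * (d * a ^ k) * (d⁻¹ * (d * a' ^ k' * d⁻¹) * b⁻¹) := by group
      _ = b * a ^ k * b⁻¹ * (d * a' ^ k' * d⁻¹) := by
        rw [← (c (pow_mem ha k) hd).eq, mul_assoc d⁻¹, ← (c (inv_mem hb) (mul_mem (mul_mem hd (pow_mem ha' k')) (inv_mem hd))).eq]; group
      _ = _ := by rw [p1, p2, mul_assoc, ← mul_assoc j, jj, one_mul]
  have w2 : b * d * (b * d) = 1 := by rw [← pow_two, (c hb hd).mul_pow, pow_two, pow_two, b2, d2, jj]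
  have w3 : Commute a (a ^ k * a' ^ k') := ((Commute.refl a).pow_right k).mul_right (c ha (pow_mem ha' k'))
  have w4 : b * d * a * (b * d * a) = 1 := by
    calc b * d * a * (b * d * a) = b * (d * a) * b⁻¹ * (b * b) * d * a := by group
      _ = b * a * b⁻¹ * (b * d * b⁻¹) * j * d * a := by rw [← (c ha hd).eq, b2]; group
      _ = 1 := by rw [b3, (c hb hd).eq, mul_inv_cancel_right, mul_assoc _ j, (c j1 hd).eq, ← mul_assoc, mul_assoc _ d d, d2, mul_assoc _ j j, jj]; simp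
  have := mul_mem (inv_mem (m _ w1 w2)) (m _ (w1.mul_left w3) w4)
  obtain ⟨p, hp, q, hq, f⟩ := (mem_sup_of_norm (le_norm_of_le_cent hc)).1 this
  replace f : p * q = g⁻¹ * a * g⁻¹⁻¹ := f.trans (by group)
  have s : p ^ (2 * k) * q ^ (2 * k) = g⁻¹ * j * g⁻¹⁻¹ := by rw [← (c hp hq).mul_pow, f, conj_pow, two_mul, pow_add, x2]
  rcases key (pow_mem hp (2 * k)) (pow_mem hq (2 * k)) (by rw [s, conj_mul, jj]; simp) with r | r
  · exact ne ((congrArg (g * · * g⁻¹) (t1 _ (s ▸ r)).symm).trans (by group))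
  · exact h4 p hp (by rw [← r.1, ← pow_add]; congr 1; ring)

end CfsgH1
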