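import Cfsg.Agent.H3.Sm2
import Cfsg.Agent.H3.Hv1

/-! Orders of small simple groups. -/

set_option autoImplicit false
open Cfsg CfsgL0 CfsgH1 CfsgH4 CfsgSm
open CfsgH3 hiding cj cj_cj

namespace CfsgH1.Sm

local notation "C[" Q "]" => Subgroup.centralizer (SetLike.coe (Q : Subgroup _))
local notation "N[" Q "]" => Subgroup.normalizer (SetLike.coe (Q : Subgroup _))
local notation "Z[" u "]" => Subgroup.zpowers u
local notation "C1[" u "]" => Subgroup.centralizer (singleton u)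

def P1 (n p : ℕ) : Prop := ∃ e < p, ∃ k ≤ n / p, 2 ≤ e ∧ e ∣ p - 1 ∧ k % p = 1 ∧ 1 < k ∧ p * e * k ∣ n ∧
      ∀ r ∈ [3, 5], r ≠ p → 2 ≠ p → n ∣ 2 ^ 10 * r ^ 6 * p → p * e * k = n
instance (n p : ℕ) : Decidable (P1 n p) := by unfold P1; infer_instance
def P2 (n p : ℕ) : Prop := ∃ k ≤ n / (p * p), k % p = 1 ∧ 1 < k ∧ p * p * k ∣ n ∧ p * p * k ≠ n ∧ n ∣ k.factorial
instance (n p : ℕ) : Decidable (P2 n p) := by unfold P2; infer_instance
def P3 (n : ℕ) : Prop := n ∣ 2 ^ 10 * 3 ^ 6 * 5 ^ 4 * 7 ^ 3 ∧ (∀ p ∈ [2, 3, 5, 7], ∀ q ∈ [2, 3, 5, 7], ¬ n ∣ p ^ 10 * q ^ 10) ∧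
    (5 ∣ n → n < 125 → n = 60) ∧ (7 ∣ n → n < 343 → n = 168) ∧ (∀ p ∈ [2, 3, 5, 7], p ∣ n → ¬ p * p ∣ n → P1 n p) ∧
    (∀ p ∈ [5, 7], p * p ∣ n → ¬ p * p * p ∣ n → P2 n p)
instance (n : ℕ) : Decidable (P3 n) := by unfold P3; infer_instance
set_option maxRecDepth 100000 in
theorem num : ∀ n < 1093, P3 n → n ∈ [60, 168, 360, 504, 420, 720, 756, 840, 960] := by decide +kernel

def ok (x a : ℤ) : Prop := |a| < |x| ∧ (x = 16 → a = 0)
instance (x a : ℤ) : Decidable (ok x a) := by unfold ok; infer_instance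
def LL : List ℤ := [6, 16, -4, -9, -24]
def RR : List ℤ := [-8, -7, -6, -5, -4, -3, -2, -1, 0, 1, 2, 3, 4, 5, 6, 7, 8]
def tt (x y z w a b c : ℤ) : ℤ := 144 + (a ^ 2 * (144 / x) + (b ^ 2 * (144 / y) + c ^ 2 * (144 / z))) + (1 + (a + (b + c))) ^ 2 * (144 / w)
def P4 (x y z w : ℤ) : Prop := ∀ a ∈ RR, ok x a → ∀ b ∈ RR, ok y b → ∀ c ∈ RR, ok z c → ok w (1 + (a + (b + c))) → 0 ≤ tt x y z w a b c → ¬ 256 ∣ tt x y z w a b c
instance (x y z w : ℤ) : Decidable (P4 x y z w) := by unfold P4; infer_instance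
set_option maxRecDepth 100000 in
theorem num2 : ∀ x ∈ LL, ∀ y ∈ LL, ∀ z ∈ LL, ∀ w ∈ LL, w + 1 + (x + (y + z)) = 0 → w ^ 2 + 1 + (x ^ 2 + (y ^ 2 + z ^ 2)) ≤ 720 →
    x ≠ -24 ∧ y ≠ -24 ∧ z ≠ -24 ∧ P4 x y z w := by decide +kernel

theorem mem_RR {x a : ℤ} (h : x ∈ LL) (h1 : x ≠ -24) (h2 : ok x a) : a ∈ RR := by
  obtain ⟨h2, h3⟩ := h2
  have : -9 < a ∧ a < 9 := by
    simp only [LL, List.mem_cons, List.not_mem_nil, or_false] at h
    rcases h with rfl | rfl | rfl | rfl | rfl <;> simp [_root_.abs_lt] at h1 h2 h3 <;> omega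
  obtain ⟨h4, h5⟩ := this
  interval_cases a <;> decide

variable {G : Type*} [Group G] [Finite G] [IsSimpleGroup G] (hG : ¬ ∀ a b : G, a * b = b * a)
include hG

theorem not_sol : ¬ Group.IsSolvable G := fun _ => hG (IsSimpleGroup.comm_iff_isSolvable.2 ‹_›)

theorem not_two {p q a b : ℕ} (hp : p.Prime) (hq : q.Prime) : ¬ Nat.card G ∣ p ^ a * q ^ b := fun h =>
  not_sol hG (burnside_paqb p q a b hp hq h)

theorem not_npc {p : ℕ} [hp : Fact p.Prime] (h : p ∣ Nat.card G) : ¬ CfsgH2.NPC p (⊤ : Subgroup G) := fun c => by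
  obtain ⟨P⟩ : Nonempty (Sylow p G) := inferInstance
  obtain ⟨K, n, k⟩ := (CfsgH2.exists_compl_iff_npc P).2 c
  rcases n.eq_bot_or_eq_top with rfl | rfl
  · exact not_normal hG h P (Subgroup.isComplement'_bot_left.1 k ▸ inferInstance)
  · exact P.ne_bot_of_dvd_card h (Subgroup.isComplement'_top_left.1 k)

theorem f1 {p : ℕ} (hp : p.Prime) (h : p ∣ Nat.card G) (h2 : ¬ p * p ∣ Nat.card G) : P1 (Nat.card G) p := by
  haveI := Fact.mk hp
  obtain ⟨m, hm⟩ := h
  obtain ⟨M, _, u, e, X, y, ε, δ, n, c, H, h1, k2, h3, h4, h5, h6, h7⟩ := setup hG hm fun d => h2 (hm ▸ Nat.mul_dvd_mul_left p d)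
  have m0 : 0 < m := Nat.pos_of_mul_pos_left (hm ▸ Nat.card_pos)
  refine ⟨e, by have := Nat.le_of_dvd (by have := hp.two_le; omega) h5; have := hp.pos; omega, n, ?_, h6, h5, h4, h7,
    ⟨c, by rw [hm, ← h3]; ring⟩, fun r hr rp p2 d => ?_⟩
  · rw [hm, Nat.mul_div_cancel_left _ hp.pos]
    exact Nat.le_of_dvd m0 ⟨e * c, by rw [← h3]; ring⟩
  have rr : r.Prime := by simp only [List.mem_cons, List.not_mem_nil, or_false] at hr; rcases hr with rfl | rfl <;> norm_num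
  have hC : C[Z[u]] = Z[u] := by
    rw [centralizer_zpowers]
    exact cent_eq_zpowers_of_simple Nat.prime_two rr hp d (fun k => ((Nat.Prime.dvd_mul hp).1 k).elim
      (fun k => p2 ((Nat.prime_dvd_prime_iff_eq hp Nat.prime_two).1 (hp.dvd_of_dvd_pow k)).symm)
      fun k => rp ((Nat.prime_dvd_prime_iff_eq hp rr).1 (hp.dvd_of_dvd_pow k)).symm) H.ord
  rw [hC, H.card] at k2
  obtain rfl : c = 1 := (Nat.eq_of_mul_eq_mul_left hp.pos (k2.symm.trans (mul_one p).symm))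
  rw [hm, ← h3]; ring

theorem f2 {p : ℕ} (hp : p.Prime) (h : p * p ∣ Nat.card G) (h2 : ¬ p * p * p ∣ Nat.card G) : P2 (Nat.card G) p := by
  haveI := Fact.mk hp
  obtain ⟨P⟩ : Nonempty (Sylow p G) := inferInstance
  obtain ⟨m, hm⟩ := h
  have c : Nat.card P = p ^ 2 := by
    rw [P.card_eq_multiplicity, fact_eq hp (k := 2) (by rw [hm, sq]) fun d => h2 (hm ▸ Nat.mul_dvd_mul_left _ d)]
  have d : p ∣ Nat.card G := hm ▸ (dvd_mul_right p p).mul_right m
  have n1 : Nat.card (Sylow p G) ≠ 1 := fun e => not_normal hG d P (by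
    rw [P.card_eq_index_normalizer, Subgroup.index_eq_one] at e; exact Subgroup.normalizer_eq_top_iff.1 e)
  have d1 : Nat.card (Sylow p G) ∣ m := CfsgH8.card_sylow_dvd_of_card (k := 2) (by rw [hm, sq])
  refine ⟨Nat.card (Sylow p G), ?_, Eq.trans (card_sylow_modEq_one p G) (Nat.mod_eq_of_lt hp.one_lt), lt_of_le_of_ne Nat.card_pos n1.symm,
    hm ▸ Nat.mul_dvd_mul_left _ d1, fun e => not_npc hG d ((CfsgH2.syl_top P).npc_of_norm_le_cent ?_), CfsgH8.card_le_factorial_sylow n1⟩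
  · rw [hm, Nat.mul_div_cancel_left _ (mul_pos hp.pos hp.pos)]
    exact Nat.le_of_dvd (Nat.pos_of_mul_pos_left (hm ▸ Nat.card_pos)) d1
  · rw [P.card_eq_index_normalizer, ← Subgroup.card_mul_index N[(P : Subgroup G)], ← sq, ← c] at e
    have := Nat.eq_of_mul_eq_mul_right (Nat.pos_of_ne_zero Subgroup.FiniteIndex.index_ne_zero) e
    rw [top_inf_eq, ← Subgroup.eq_of_le_of_card_ge Subgroup.le_normalizer this.ge]
    exact CfsgH2.le_cent_self ⟨⟨IsPGroup.commutative_of_card_eq_prime_sq c⟩⟩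

theorem ne420 : Nat.card G ≠ 420 ∧ Nat.card G ≠ 840 := by
  classical
  haveI : Fact (Nat.Prime 7) := ⟨by norm_num⟩
  have k : ∀ m, Nat.card G = 7 * m → m = 60 ∨ m = 120 → False := fun m h hm => by
    obtain ⟨M, _, u, e, X, y, ε, δ, n, c, H, h1, h2, h3, h4, h5, h6, h7⟩ := setup hG h (by omega)
    have a : n ∣ 120 := (Dvd.intro_left (c * e) (by rw [← h3]; ring)).trans (by rcases hm with rfl | rfl <;> norm_num : m ∣ 120)
    have l := Nat.le_of_dvd (by norm_num) h5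
    have l' := Nat.le_of_dvd (by norm_num) a
    have : n = 8 ∨ n = 15 ∨ n = 120 := by interval_cases n <;> omega
    have c1 : c ≠ 1 ∧ (e = 2 ∧ n = 15 ∨ e * n = 24) := by rcases this with rfl | rfl | rfl <;> interval_cases e <;> omega
    obtain ⟨c1, ⟨he, rfl⟩ | c3⟩ := c1
    · obtain ⟨d, f, s, a1, a2, a3, a4, a5, a6, a7, -⟩ := two hG H he
      rw [h1] at a3 a4
      obtain ⟨b1, b2⟩ := a6 (by rw [h2]; omega)
      have := Nat.le_of_dvd (by norm_num) a3
      have := Nat.le_of_dvd (by norm_num) a4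
      have : d = 15 ∨ d = 30 := by clear a4; interval_cases d <;> omega
      have : f = 15 ∨ f = 30 := by clear a3; interval_cases f <;> omega
      omega
    obtain ⟨χ, hχ⟩ := Finset.card_pos.1 (show 0 < (X.erase (irrOne G)).card by have := card_erase H; omega)
    obtain ⟨c0, c2⟩ := Finset.mem_erase.1 hχ
    obtain ⟨a1, a2, a3, a4⟩ := dX hG H c2 c0
    have b := big hG H (by rw [h2]; omega) (H.memX c2) c0
    have : charDegree χ.1 < 29 := by by_contra! d; have := Nat.pow_le_pow_left d 2; omega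
    rw [h1, c3] at a2
    generalize charDegree χ.1 = d at *
    interval_cases d <;> omega
  exact ⟨fun h => k 60 h (by omega), fun h => k 120 h (by omega)⟩

theorem ne960 : Nat.card G ≠ 960 := fun h => by
  haveI : Fact (Nat.Prime 5) := ⟨by norm_num⟩
  obtain ⟨M, _, u, e, X, y, ε, δ, n, H, h1, hC, h2, h3, h4, h5, h6⟩ := setup3 (p := 5) (a := 6) (b := 1)
    hG Nat.prime_two Nat.prime_three (by rw [h]; norm_num) (by norm_num)
  have := Nat.le_of_dvd (by norm_num) h4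
  have he : e = 2 := by interval_cases e <;> omega
  obtain ⟨d, f, s, a1, a2, a3, a4, a5, -, a6, a7⟩ := two hG H he
  rw [h1, show n = 96 by subst he; omega] at a3 a4
  have : d < 31 := by rw [h] at a5; nlinarith
  obtain ⟨w, w1, c, w2⟩ := exists_two_central (G := G) (k := 5) (by rw [h]; norm_num)
  obtain ⟨K, t0, b1, b2, b3⟩ := a7 hC w w1
  rw [w2, h] at b3
  rcases a6 with ⟨-, rfl, a⟩ | ⟨rfl, rfl, a⟩
  · interval_cases d <;> omega
  · have : f < 30 := by omega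
    obtain ⟨b4, b5⟩ := abs_lt.1 b1
    push_cast at b3 b4 b5
    have e : (K : ℤ) * (64 * c) ^ 2 * (f + 1) * f = 4096 * ((K * c ^ 2) * ((f + 1) * f)) := by ring
    rw [e] at b3
    generalize (K * c ^ 2 : ℤ) = t at b3
    obtain rfl : f = 3 := by interval_cases f <;> omega
    push_cast at *; interval_cases t0 <;> omega

theorem ne756 : Nat.card G ≠ 756 := fun h => by
  classical
  haveI : Fact (Nat.Prime 7) := ⟨by norm_num⟩
  obtain ⟨M, _, u, e, X, y, ε, δ, n, H, h1, hC, h2, h3, h4, h5, h6⟩ := setup3 (p := 7) (a := 2) (b := 3)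
    hG Nat.prime_two Nat.prime_three (by rw [h]; norm_num) (by norm_num)
  have := Nat.le_of_dvd (by norm_num) h4
  obtain rfl : e = 3 := by interval_cases e <;> omega
  obtain ⟨a, b, ab, e⟩ := Finset.card_eq_two.1 (show (X.erase (irrOne G)).card = 2 by have := card_erase H; omega)
  have k : ∀ χ ∈ X.erase (irrOne G), ε χ * charDegree χ.1 = -6 ∨ ε χ * charDegree χ.1 = -27 := fun χ hχ => by
    obtain ⟨a1, a2, a3, a4⟩ := dX hG H (Finset.mem_of_mem_erase hχ) (Finset.ne_of_mem_erase hχ)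
    rw [h1, h2] at a2
    have : charDegree χ.1 < 28 := by by_contra! d; have := Nat.pow_le_pow_left d 2; omega
    generalize charDegree χ.1 = d at *
    rcases a4 with ⟨s, a4⟩ | ⟨s, a4⟩ <;> rw [s] <;> interval_cases d <;> omega
  obtain ⟨ψ, hψ⟩ := Finset.card_pos.1 H.pos'
  obtain ⟨a1, a2, a3, a4⟩ := dY hG H hψ
  have r := rel' H hψ
  rw [e] at k r
  rw [Finset.sum_pair ab] at r
  have k1 := k a (by simp)
  have k2 := k b (by simp)
  rw [h1, h2] at a2
  have : charDegree ψ.1 < 28 := by by_contra! d; have := Nat.pow_le_pow_left d 2; omega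
  generalize charDegree ψ.1 = d at *
  rcases a4 with ⟨rfl, a4⟩ | ⟨rfl, a4⟩ <;> interval_cases d <;> omega

theorem ne720 : Nat.card G ≠ 720 := fun h => by
  classical
  have := Fintype.ofFinite G
  letI : DecidableEq (G → ℂ) := fun a b => Classical.propDecidable (a = b)
  haveI : Fact (Nat.Prime 5) := ⟨by norm_num⟩
  obtain ⟨M, _, u, e, X, y, ε, δ, n, H, h1, hC, h2, h3, h4, h5, h6⟩ := setup3 (p := 5) (a := 4) (b := 2)
    hG Nat.prime_two Nat.prime_three (by rw [h]; norm_num) (by norm_num)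
  have := Nat.le_of_dvd (by norm_num) h4
  obtain rfl : e = 4 := by interval_cases e <;> omega
  obtain ⟨w, hw, c, w2⟩ := exists_two_central (G := G) (k := 3) (by rw [h]; norm_num)
  have ww : w * w = 1 := CfsgL0.inv_mul_self hw
  have w1 := CfsgL0.inv_ne_one hw
  have k : ∀ (χ : IrrCharacter G) (s : ℤ), χ ≠ irrOne G → charDegree χ.1 ∣ 144 → (s = 1 ∧ charDegree χ.1 % 5 = 1 ∨ s = -1 ∧ charDegree χ.1 % 5 = 4) →
      s * charDegree χ.1 ∈ LL ∧ ∃ a : ℤ, s * χ.1 w = a ∧ ok (s * charDegree χ.1) a ∧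
        χ.1 w * χ.1 w / χ.1 1 * s * 144 = (a ^ 2 * (144 / (s * charDegree χ.1)) : ℤ) := fun χ s n dd a4 => by
    have a1 := one_lt_deg hG n
    have a3 := deg_sq_lt n
    have l : charDegree χ.1 < 27 := by by_contra! d; have := Nat.pow_le_pow_left d 2; omega
    obtain ⟨a, ha⟩ := exists_int_of_sq χ.2.isGen ww
    have b := abs_lt hG n w1 ha
    have z : charDegree χ.1 = 16 → a = 0 := fun e => by
      have := χ.2.eq_zero_of_defect_zero Nat.prime_two (coe_deg χ).symm (by rw [e, h]; norm_num) hw.symm.dvd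
      exact_mod_cast ha.symm.trans this
    rw [← coe_deg, ha]
    generalize charDegree χ.1 = d at *
    refine ⟨?_, s * a, by push_cast; rfl, ⟨?_, fun e => ?_⟩, ?_⟩
    · rcases a4 with ⟨rfl, a4⟩ | ⟨rfl, a4⟩ <;> interval_cases d <;> simp_all [LL]
    · rcases a4 with ⟨rfl, a4⟩ | ⟨rfl, a4⟩ <;> simpa using b
    · rw [z (by rcases a4 with ⟨rfl, a4⟩ | ⟨rfl, a4⟩ <;> omega), mul_zero]
    · obtain ⟨m, hm⟩ := dd
      have d0 : (d : ℂ) ≠ 0 := by exact_mod_cast (by omega)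
      have : (144 : ℤ) / (s * d) = s * m := by
        refine Int.ediv_eq_of_eq_mul_right (by rcases a4 with ⟨rfl, a4⟩ | ⟨rfl, a4⟩ <;> omega) ?_
        rcases a4 with ⟨rfl, a4⟩ | ⟨rfl, a4⟩ <;> simp <;> exact_mod_cast hm
      have hm' : (144 : ℂ) = d * m := by exact_mod_cast hm
      rw [this, hm']
      rcases a4 with ⟨rfl, a4⟩ | ⟨rfl, a4⟩ <;> push_cast <;> field_simp
  have kX := fun χ (hχ : χ ∈ X.erase (irrOne G)) =>
    let ⟨_, a2, _, a4⟩ := dX hG H (Finset.mem_of_mem_erase hχ) (Finset.ne_of_mem_erase hχ)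
    k χ (ε χ) (Finset.ne_of_mem_erase hχ) (by rwa [h1, h2] at a2) (by omega)
  obtain ⟨ψ, e'⟩ := Finset.card_eq_one.1 (show (exc y).card = 1 by have := H.cardY; omega)
  have hψ : ψ ∈ exc y := e' ▸ Finset.mem_singleton_self ψ
  obtain ⟨-, a2, -, a4⟩ := dY hG H hψ
  obtain ⟨m4, v4, e4, o4, f4⟩ := k ψ δ (H.ne_oneY hψ) (by rwa [h1, h2] at a2) (by omega)
  obtain ⟨a, b, d, ab, ad, bd, e⟩ := Finset.card_eq_three.1 (show (X.erase (irrOne G)).card = 3 by have := card_erase H; omega)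
  have sm : ∀ {A : Type} [AddCommMonoid A] (F : IrrCharacter G → A), ∑ x ∈ X.erase (irrOne G), F x = F a + (F b + F d) := fun F => by
    rw [e, Finset.sum_insert (by simp [ab, ad]), Finset.sum_pair bd]
  obtain ⟨m1, v1, e1, o1, f1⟩ := kX a (by simp [e])
  obtain ⟨m2, v2, e2, o2, f2⟩ := kX b (by simp [e])
  obtain ⟨m3, v3, e3, o3, f3⟩ := kX d (by simp [e])
  have r := rel' H hψ
  have q := sq_le H hψ
  rw [sm] at r q
  have sq : ∀ (s : ℤ) (d : ℕ), s = 1 ∨ s = -1 → (s * d) ^ 2 = (d ^ 2 : ℕ) := by rintro _ d (rfl | rfl) <;> simp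
  obtain ⟨n1, n2, n3, n4⟩ := num2 _ m1 _ m2 _ m3 _ m4 r (by
    rw [sq _ _ H.sgn', sq _ _ (H.sgn _), sq _ _ (H.sgn _), sq _ _ (H.sgn _)]
    rw [e', Finset.card_singleton, one_mul, h] at q
    exact_mod_cast q)
  have r2 := H.rel ψ hψ w (by rw [hw]; norm_num)
  rw [← Finset.add_sum_erase _ _ H.one, sm, e1, e2, e3, e4, H.eps_one] at r2
  simp only [irrOne] at r2
  obtain rfl : v4 = -(1 + (v1 + (v2 + v3))) := by
    have : ((v4 + (1 + (v1 + (v2 + v3))) : ℤ) : ℂ) = 0 := by push_cast at r2 ⊢; linear_combination r2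
    exact eq_neg_of_add_eq_zero_left (by exact_mod_cast this)
  have P := H.sS_pairs hC w w
  have cu : ∀ v ∈ Z[u], v ≠ 1 → ∃ g, g * u * g⁻¹ = v := fun v hv v1 => by
    letI : MulAction N[Z[u]] G := MulAction.compHom _ ((MulAut.conj : _ →* MulAut _).comp (N[Z[u]]).subtype)
    have h1 : MulAction.stabilizer N[Z[u]] u = (C[Z[u]]).subgroupOf N[Z[u]] := Subgroup.ext fun y => by
      rw [centralizer_zpowers]
      exact (mul_inv_eq_iff_eq_mul (a := y.1 * u)).trans Subgroup.mem_centralizer_singleton_iff.symm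
    have i := H.idx
    rw [Subgroup.relIndex, ← h1, MulAction.index_stabilizer] at i
    have := Set.eq_of_subset_of_ncard_le (s := MulAction.orbit N[Z[u]] u) (t := (Z[u] : Set G) \ {1}) (by
      rintro _ ⟨g, rfl⟩
      exact ⟨CfsgH2.conj_mem_of_norm g.2 (Subgroup.mem_zpowers u), fun d => H.ne_one (conj_eq_one_iff.1 d)⟩) (by
      rw [i, Set.ncard_diff_singleton_of_mem (one_mem _)]; exact (congrArg (· - 1) H.card).le)
    obtain ⟨g, hg⟩ := this.ge ⟨hv, v1⟩
    exact ⟨g, hg⟩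
  have g0 : (Nat.card G : ℂ) ≠ 0 := by exact_mod_cast Nat.card_pos.ne'
  rw [sS_congr (b := fun _ => Nat.card {z : G × G // IsConj w z.1 ∧ IsConj w z.2 ∧ z.1 * z.2 = u}) fun v hv v1 => by
      obtain ⟨g, rfl⟩ := cu v hv v1
      refine mul_right_cancel₀ g0 ?_
      rw [card_class_pairs, card_class_pairs]
      congr 1
      exact Finset.sum_congr rfl fun χ _ => by rw [χ.2.isCharacter.isClassFunction u g],
    sS_const, H.ord, Finset.sum_congr rfl fun θ _ => mul_div_right_comm _ _ _, sum_irr H hC, ← Finset.add_sum_erase _ _ H.one, sm, e', Finset.sum_singleton,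
    H.eps_one] at P
  generalize Nat.card {z : G × G // _} = K at P
  have i : ((C1[w]).index : ℂ) * Nat.card C1[w] = Nat.card G := by exact_mod_cast (C1[w]).index_mul_card
  rw [w2, h] at i
  rw [h] at P
  simp only [irrOne] at P
  have T : (5 * tt (ε a * charDegree a.1) (ε b * charDegree b.1) (ε d * charDegree d.1) (δ * charDegree ψ.1) v1 v2 v3 : ℤ) = 256 * (K * c ^ 2) := by
    refine Int.cast_injective (α := ℂ) ?_
    rw [neg_sq] at f4
    simp only [tt, Int.cast_mul (5 : ℤ), Int.cast_add, ← f1, ← f2, ← f3, ← f4]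
    push_cast at P i ⊢
    linear_combination (-(c : ℂ) ^ 2 * 256 / 2880) * P - (c * (C1[w]).index * 16 + 720) / 720 * (1 + (a.1 w * a.1 w / a.1 1 * ε a + (b.1 w * b.1 w / b.1 1 * ε b +
      d.1 w * d.1 w / d.1 1 * ε d)) + ψ.1 w * ψ.1 w / ψ.1 1 * δ) * i
  refine n4 _ (mem_RR m1 n1 o1) o1 _ (mem_RR m2 n2 o2) o2 _ (mem_RR m3 n3 o3) o3 ⟨by simpa only [abs_neg] using o4.1, fun k => neg_eq_zero.1 (o4.2 k)⟩ ?_ ?_
  · have : (0 : ℤ) ≤ K * c ^ 2 := by positivity
    omega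
  · omega

theorem small (h : Nat.card G ≤ 1092) : Nat.card G = 60 ∨ Nat.card G = 168 ∨ Nat.card G = 360 ∨ Nat.card G = 504 ∨ Nat.card G = 660 ∨ Nat.card G = 1092 := by
  have br : ∀ p, p.Prime → p ∣ Nat.card G → Nat.card G < p ^ 3 → 2 * Nat.card G = p * (p ^ 2 - 1) ∨
      Nat.card G = p * (p - 1) * (p - 2) ∧ ∃ m, p = 2 ^ m + 1 := fun p hp d l =>
    haveI := Fact.mk hp
    (brc_small hG d l).2.imp And.left fun ⟨a, m, _, _, _, _, b, _⟩ => ⟨a, m, b⟩
  by_cases c : ∃ p, p.Prime ∧ p ∣ Nat.card G ∧ 8 ≤ p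
  · obtain ⟨p, hp, d, l⟩ := c
    have l2 : 11 ≤ p := by by_contra! k; interval_cases p <;> norm_num at hp
    obtain ⟨q, rfl⟩ := Nat.exists_eq_add_of_le' (show 2 ≤ p by omega)
    rcases br _ hp d (by have := Nat.pow_le_pow_left l2 3; omega) with e | ⟨e, m, hm⟩
    · rw [show (q + 2) ^ 2 - 1 = (q + 1) * (q + 3) from Nat.sub_eq_of_eq_add (by ring)] at e
      have : q < 12 := by by_contra! k; nlinarith [Nat.mul_le_mul k k]
      have : 9 ≤ q := by omega
      interval_cases q <;> omega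
    · rw [show q + 2 - 1 = q + 1 from rfl, Nat.add_sub_cancel] at e
      have : q < 10 := by by_contra! k; nlinarith [Nat.mul_le_mul k k]
      obtain rfl : q = 9 := by omega
      have := (by norm_num : Nat.Prime 5).dvd_of_dvd_pow ((by omega : 10 = 2 ^ m) ▸ (by norm_num : 5 ∣ 10))
      omega
  have pr : ∀ p ∈ [2, 3, 5, 7], p.Prime := by decide
  have := num _ (Nat.lt_succ_of_le h) ⟨(Nat.dvd_iff_prime_pow_dvd_dvd _ _).2 fun p k hp d => ?_, fun p hp q hq => not_two hG (pr p hp) (pr q hq),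
    fun d l => ?_, fun d l => ?_, fun p hp => f1 hG (pr p hp), fun p hp => f2 hG (pr p (by simp at hp ⊢; omega))⟩
  · have := ne420 hG
    have := ne720 hG
    have := ne756 hG
    have := ne960 hG
    simp only [List.mem_cons, List.not_mem_nil, or_false] at *
    omega
  · rcases k with _ | k
    · simp
    have l := (Nat.le_of_dvd Nat.card_pos d).trans h
    have p8 : p < 8 := by by_contra! k; exact c ⟨p, hp, (dvd_pow_self p (Nat.succ_ne_zero _)).trans d, k⟩
    have k1 : k < 10 := by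
      by_contra! m
      have := (Nat.pow_le_pow_right two_pos (Nat.succ_le_succ m)).trans ((Nat.pow_le_pow_left hp.two_le _).trans l)
      omega
    interval_cases p <;> (try norm_num at hp) <;> interval_cases k <;> first | (norm_num at l; done) | norm_num
  · rcases br 5 (by norm_num) d l with e | ⟨e, -⟩ <;> omega
  · rcases br 7 (by norm_num) d l with e | ⟨-, m, e⟩
    · omega
    · have := Nat.prime_three.dvd_of_dvd_pow ((by omega : 6 = 2 ^ m) ▸ (by norm_num : 3 ∣ 6))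
      omega

end CfsgH1.Sm
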