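import Cfsg.Agent.H1.LX3

/-! Transfer into the normalizer of a large extraspecial subgroup. -/

set_option autoImplicit false

namespace CfsgH1

open Subgroup Cfsg CfsgH2 Function
open scoped commutatorElement

variable {G : Type*} [Group G] {A : Type*} [CommGroup A] {a b e g r w x y z : G} {D E H K M R : Subgroup G} {k n : ℕ}

section hom
variable {ν : G → A}

theorem hom_der (hm : ∀ a ∈ M, ∀ b ∈ M, ν (a * b) = ν a * ν b) (hx : x ∈ ⁅M, M⁆) : ν x = 1 := by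
  obtain ⟨u, hu, rfl⟩ := (map_subtype_commutator M).ge hx
  exact Abelianization.commutator_subset_ker (MonoidHom.mk' (fun m : M => ν m) fun a b => hm _ a.2 _ b.2) hu

theorem hom_one (hm : ∀ a ∈ M, ∀ b ∈ M, ν (a * b) = ν a * ν b) : ν 1 = 1 := hom_der hm (one_mem _)

variable [Finite G]

theorem XZ.mem_of_two (h : XZ E z) (i : M.relIndex E = 2) : z ∈ M := by
  obtain ⟨a, ha, a1⟩ := SetLike.not_le_iff_exists.1 fun k : E ≤ zpowers z => h.nab (le_centralizer_iff_isMulCommutative.1 (k.trans (zpowers_le.2 h.memc)))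
  obtain ⟨b, hb, c⟩ := h.exists_nc ha a1
  have := fun u v : E => mul_mem_iff_of_index_two (H := M.subgroupOf E) i (a := u) (b := v)
  have e : ⁅(⟨b, hb⟩ : E), ⟨a, ha⟩⁆ ∈ M.subgroupOf E := by simp only [commutatorElement_def, this, inv_mem_iff]; tauto
  exact h.comm_eq hb ha c ▸ e

theorem XZ.eq_inf (h : XZ E z) (i : M.relIndex E = 2) (he : e ∈ E) (h1 : e ∉ zpowers z) (l : M ⊓ E ≤ C1[e]) : E ⊓ C1[e] ≤ M ⊓ E :=
  (eq_of_le_of_card_ge (le_inf inf_le_right l) (Nat.le_of_mul_le_mul_right (by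
    rw [h.card_inf he h1, ← CfsgH2.card_mul_relIndex (inf_le_right : M ⊓ E ≤ E), inf_relIndex_right, i]) two_pos)).ge

theorem LX.mem_of_cent_two (h : LX E z) (l : D ≤ E) (i : D.relIndex E = 2) (hx : x ∈ C[D]) (h2 : x * x = 1) : x ∈ E := by
  have xz : x ∈ C1[z] := centralizer_le (Set.singleton_subset_iff.2 (h.toXZ.mem_of_two i)) hx
  by_cases k : ∀ y ∈ E, ⁅y, x⁆ ∈ zpowers z
  · exact h.le_of_comm ((commutator_comm _ _).le.trans (comm_le_of_le_stab (zpowers_le.2 (mem_stab.2 ⟨(norm_zp2 h.ord).ge xz, k⟩)))) (zpowers_le.2 xz) (mem_zpowers x)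
  push Not at k
  obtain ⟨y, hy, k⟩ := k
  have n := le_norm_of_relIndex_two l i hy
  have w1 : ⁅y, x⁆ ∈ E := by rw [commutatorElement_def, mul_assoc, mul_assoc, ← mul_assoc x]; exact mul_mem hy (conj_mem_of_norm (h.norm xz) (inv_mem hy))
  have w2 : ⁅y, x⁆ ∈ C[D] := mul_mem (conj_mem_of_norm (norm_le_norm_cent _ n) hx) (inv_mem hx)
  have e := h.toXZ.eq_inf i w1 k (inf_le_left.trans (le_cent1_iff.2 w2))
  have c := mem_cent_iff.1 hx _ (e ⟨w1, mem_centralizer_singleton_iff.2 rfl⟩).1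
  refine h.mem_of_cent w1 k ?_ (centralizer_le (e.trans inf_le_left) hx)
  have := Commute.mul_pow c 2
  rw [pow_two x, h2, mul_one, pow_two ⁅y, x⁆] at this
  rw [← this, commutatorElement_def, inv_mul_cancel_right, pow_two, conj_mul, h2]; simp

theorem LX.four (h : LX E z) (hM : M ≤ N[E]) (i : M.relIndex E = 2) (hy : y ∈ E) (y1 : y ∉ M) (hm : ∀ a ∈ M, ∀ b ∈ M, ν (a * b) = ν a * ν b) (h4 : ∀ a, ν a ^ 4 = 1)
    (hr : r ∈ M) (he : e ∈ M) (e0 : r⁻¹ * y⁻¹ * r * y = e) : ν e ^ 2 = 1 := by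
  by_contra k
  have eE : e ∈ E := e0 ▸ mul_mem (conj_mem_of_norm' (hM hr) (inv_mem hy)) hy
  have ez : e ^ 2 = z := ((mem_zp2 h.ord).1 (h.sq_mem eE)).resolve_left fun a => k (by rw [← qf_pow hm he, a, hom_one hm])
  have nz : ν z ≠ 1 := by rwa [← ez, qf_pow hm he]
  have ab : Ab[M ⊓ E] := not_not.1 fun a => nz (hom_der hm (commutator_mono inf_le_left inf_le_left (h.mem_der inf_le_right a)))
  have zz := mul_self_of_two h.ord
  have e1 : e ∉ zpowers z := fun a => ne_one_of_two h.ord (by rcases (mem_zp2 h.ord).1 a with a | a <;> rw [← ez, a] <;> simp [pow_two, zz])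
  have l := h.toXZ.eq_inf i eE e1 (le_cent1_iff.2 (le_cent_self ab ⟨he, eE⟩))
  have l2 : M ⊓ E ≤ zpowers e := fun d hd => sup_le (zpowers_le.2 (ez ▸ npow_mem_zpowers e 2)) le_rfl (h.cent_c1 eE e1 hd.2 (centralizer_le l (le_cent_self ab hd)))
  have c : ⁅r⁻¹, e⁆ = 1 := by
    have d0 := hom_der hm (commutator_mem_commutator (inv_mem hr) he)
    have d1 : ⁅r⁻¹, e⁆ ∈ M ⊓ E := ⟨comm_le_left le_normalizer (commutator_mem_commutator (inv_mem hr) he), E.mul_mem (conj_mem_of_norm (hM (inv_mem hr)) eE) (E.inv_mem eE)⟩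
    obtain ⟨j, hj⟩ := (mem_powers_iff_mem_zpowers.2 (l2 d1) :)
    replace hj : e ^ j = ⁅r⁻¹, e⁆ := hj
    rcases Nat.even_or_odd' j with ⟨j, rfl | rfl⟩
    · rw [pow_mul, ez] at hj
      exact ((mem_zp2 h.ord).1 (hj ▸ npow_mem_zpowers z j)).resolve_right fun a => nz (a ▸ d0)
    · refine (k ?_).elim
      have := congrArg (· ^ 2) d0
      rwa [← hj, qf_pow hm he, ← pow_mul, show (2 * j + 1) * 2 = 4 * j + 2 by ring, pow_add, pow_mul, h4, one_pow, one_mul, one_pow] at this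
  replace c : Commute r e := Commute.inv_left_iff.1 (commutatorElement_eq_one_iff_commute.1 c)
  have y2 : e ∉ C1[y⁻¹] := fun a => y1 ((inv_mem_iff.1 (l ⟨E.inv_mem hy, mem_centralizer_singleton_iff.2 (mem_centralizer_singleton_iff.1 a).symm⟩)).1)
  have y3 := h.conj_eq eE (inv_mem hy) y2
  have y4 : r⁻¹ * y⁻¹ * r = e * y⁻¹ := eq_mul_inv_of_mul_eq e0
  have w : r ^ 2 * e ∈ C[E] := by
    refine le_cent1_iff.1 ((h.toXZ.sup_zpowers eE (inv_mem hy) fun a => y2 (mem_centralizer_singleton_iff.2 (mem_centralizer_singleton_iff.1 a).symm)).ge.trans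
      (sup_le (l.trans (l2.trans (zpowers_le.2 (mem_centralizer_singleton_iff.2 ((c.symm.pow_right 2).mul_right (Commute.refl e)))))) (zpowers_le.2 (mem_centralizer_singleton_iff.2 ?_))))
    calc y⁻¹ * (r ^ 2 * e) = r * (r * (r⁻¹ * (r⁻¹ * y⁻¹ * r) * r)) * e := by rw [pow_two]; group
      _ = r * (r * (e * (r⁻¹ * y⁻¹ * r))) * e := by rw [y4, ← mul_assoc r⁻¹, c.inv_left.eq, mul_assoc e, mul_assoc e, ← y4]
      _ = r ^ 2 * (z * y⁻¹) * e := by rw [y4, ← ez]; simp only [pow_two, mul_assoc]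
      _ = _ := by rw [← y3]; group
  have w2 : (r ^ 2 * e) ^ 2 = 1 := by rcases (mem_zp2 h.ord).1 (h.cent_eq.le w) with a | a <;> rw [a] <;> simp [pow_two, zz]
  rw [(c.pow_left 2).mul_pow, ez, ← pow_mul, mul_eq_one_iff_eq_inv, inv_of_two h.ord] at w2
  exact nz (by rw [← w2, qf_pow hm hr, h4])
end hom

section coc
variable {Ω : Type*} [MulAction G Ω] {c : G → Ω → A} {B O : Finset Ω} {p : Ω → Prop}

/-- invariance of a finite set -/
def InvS (R : Subgroup G) (O : Finset Ω) : Prop := ∀ g ∈ R, ∀ ω ∈ O, g • ω ∈ O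

theorem coc_mul (hc : ∀ g h ω, c (g * h) ω = c g (h • ω) * c h ω) (hO : InvS R O) (hb : b ∈ R) : ∏ ω ∈ O, c (a * b) ω = (∏ ω ∈ O, c a ω) * ∏ ω ∈ O, c b ω := by
  simp only [hc, Finset.prod_mul_distrib]
  congr 1
  exact Finset.prod_nbij' (b • ·) (b⁻¹ • ·) (hO b hb) (hO _ (inv_mem hb)) (by simp) (by simp) fun _ _ => rfl

theorem halve [Finite Ω] (hc : ∀ g h ω, c (g * h) ω = c g (h • ω) * c h ω)
    (h : ∀ ω, p ω → ∃ M ≤ R, M.relIndex R = 2 ∧ (∀ g ∈ R, g • ω = ω → g ∈ M) ∧ ∃ y ∈ R, y ∉ M ∧ ∀ B : Finset Ω, (∀ ω ∈ B, p ω) → InvS M B →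
      (∀ r ∈ M, ((∏ ω ∈ B, c r ω) * ∏ ω ∈ B, c (y⁻¹ * r * y) ω) ^ k = 1) ∧ (∏ ω ∈ B, c (y * y) ω) ^ k = 1)
    (O : Finset Ω) : (∀ ω ∈ O, p ω) → InvS R O → ∀ r ∈ R, (∏ ω ∈ O, c r ω) ^ k = 1 := by
  classical
  haveI := Fintype.ofFinite Ω
  refine Finset.strongInductionOn O fun O ih hp hO r hr => ?_
  rcases O.eq_empty_or_nonempty with rfl | ⟨ω, hω⟩
  · simp
  obtain ⟨M, l, i, s, y, hy, y1, h⟩ := h ω (hp ω hω)
  have m : ∀ {a b}, a ∈ R → b ∈ R → (a * b ∈ M ↔ (a ∈ M ↔ b ∈ M)) := fun ha hb => mul_mem_iff_of_index_two (H := M.subgroupOf R) i (a := ⟨_, ha⟩) (b := ⟨_, hb⟩)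
  let B := Finset.univ.filter fun v => ∃ g ∈ M, g • ω = v
  have mB : ∀ {v}, v ∈ B ↔ ∃ g ∈ M, g • ω = v := by simp [B]
  have iB : InvS M B := fun g hg v hv => by
    obtain ⟨a, ha, rfl⟩ := mB.1 hv
    exact mB.2 ⟨g * a, mul_mem hg ha, mul_smul _ _ _⟩
  let U := B ∪ B.image (y • ·)
  have mU : ∀ {v}, v ∈ U ↔ ∃ g ∈ R, g • ω = v := by
    simp only [U, Finset.mem_union, Finset.mem_image, mB]
    refine ⟨?_, ?_⟩
    · rintro (⟨g, hg, e⟩ | ⟨_, ⟨g, hg, rfl⟩, e⟩)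
      exacts [⟨g, l hg, e⟩, ⟨y * g, mul_mem hy (l hg), (mul_smul _ _ _).trans e⟩]
    · rintro ⟨g, hg, rfl⟩
      by_cases k : g ∈ M
      exacts [.inl ⟨g, k, rfl⟩, .inr ⟨_, ⟨y⁻¹ * g, (m (inv_mem hy) hg).2 (iff_of_false (mt inv_mem_iff.1 y1) k), rfl⟩, by rw [smul_smul, mul_inv_cancel_left]⟩]
  have iU : InvS R U := fun g hg v hv => by
    obtain ⟨a, ha, rfl⟩ := mU.1 hv
    exact mU.2 ⟨g * a, mul_mem hg ha, mul_smul _ _ _⟩
  have lU : U ⊆ O := fun v hv => by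
    obtain ⟨a, ha, rfl⟩ := mU.1 hv
    exact hO a ha ω hω
  have d : Disjoint B (B.image (y • ·)) := Finset.disjoint_left.2 fun v h1 h2 => by
    obtain ⟨a, ha, rfl⟩ := mB.1 h1
    obtain ⟨_, h3, e⟩ := Finset.mem_image.1 h2
    obtain ⟨b, hb, rfl⟩ := mB.1 h3
    have := s (a⁻¹ * y * b) (mul_mem (mul_mem (inv_mem (l ha)) hy) (l hb)) (by rw [mul_smul, mul_smul, e, inv_smul_smul])
    exact y1 ((mul_mem_cancel_left (inv_mem ha)).1 ((mul_mem_cancel_right hb).1 this))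
  obtain ⟨h1, h2⟩ := h B (fun v hv => hp v (lU (Finset.mem_union_left _ hv))) iB
  have pU : ∀ g, (∏ v ∈ U, c g v) * ∏ v ∈ B, c y v = (∏ v ∈ B, c g v) * ∏ v ∈ B, c (g * y) v := fun g => by
    rw [Finset.prod_union d, Finset.prod_image fun _ _ _ _ => (MulAction.injective y ·), mul_assoc, ← Finset.prod_mul_distrib]
    simp only [hc]
  have a1 : ∀ r ∈ M, (∏ v ∈ U, c r v) ^ k = 1 := fun r hr => by
    have := pU r
    rw [show r * y = y * (y⁻¹ * r * y) by group, coc_mul hc iB ((m (mul_mem (inv_mem hy) (l hr)) hy).2 (by rw [m (inv_mem hy) (l hr), inv_mem_iff]; tauto)), mul_left_comm, mul_comm] at this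
    rw [mul_left_cancel this, h1 r hr]
  have a2 : (∏ v ∈ U, c y v) ^ k = 1 := by
    have := pU y
    rw [mul_comm] at this
    rw [mul_left_cancel this, h2]
  rw [← Finset.prod_sdiff lU, mul_pow, ih (O \ U) (Finset.sdiff_ssubset lU ⟨ω, mU.2 ⟨1, one_mem _, one_smul _ _⟩⟩) (fun v hv => hp v (Finset.mem_sdiff.1 hv).1)
    (fun g hg v hv => Finset.mem_sdiff.2 ⟨hO g hg v (Finset.mem_sdiff.1 hv).1, fun e => (Finset.mem_sdiff.1 hv).2 (inv_smul_smul g v ▸ iU _ (inv_mem hg) _ e)⟩) r hr, one_mul]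
  by_cases k : r ∈ M
  · exact a1 r k
  · rw [← inv_mul_cancel_right r y, coc_mul hc iU hy, mul_pow, a1 _ ((m hr (inv_mem hy)).2 (iff_of_false k (mt inv_mem_iff.1 y1))), a2, one_mul]

variable [Finite G]

theorem exists_half (hR : PG[2, R]) {ω : Ω} (h : ¬ ∀ g ∈ R, g • ω = ω) : ∃ M ≤ R, R ≤ N[M] ∧ M.relIndex R = 2 ∧ ∀ g ∈ R, g • ω = ω → g ∈ M := by
  haveI : Fact (Nat.Prime 2) := ⟨Nat.prime_two⟩
  obtain ⟨M, h1, h2, h3, h4⟩ := exists_maximal_sub (K := R ⊓ MulAction.stabilizer G ω) hR (lt_of_le_of_ne inf_le_left fun e => h fun g hg => (e.ge hg).2)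
  exact ⟨M, h2, h3, h4, fun g hg e => h1 ⟨hg, e⟩⟩

theorem coc_triv [Finite Ω] (hc : ∀ g h ω, c (g * h) ω = c g (h • ω) * c h ω) (hk : ∀ g ω, c g ω ^ (2 * k) = 1) (hp : ∀ ω, p ω → ¬ ∀ e ∈ E, e • ω = ω)
    (h0 : ∀ M ≤ N[E], M.relIndex E = 2 → ∀ y ∈ E ⊓ N[M], y ∉ M → ∀ B : Finset Ω, (∀ ω ∈ B, p ω) → InvS M B →
      (∀ r ∈ M, (∏ ω ∈ B, c (r⁻¹ * y⁻¹ * r * y) ω) ^ k = 1) ∧ (∏ ω ∈ B, c (y * y) ω) ^ k = 1)
    (R : Subgroup G) : PG[2, R] → E ≤ R → R ≤ N[E] → ∀ O : Finset Ω, (∀ ω ∈ O, p ω) → InvS R O → ∀ r ∈ R, (∏ ω ∈ O, c r ω) ^ k = 1 := by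
  induction R using WellFoundedLT.induction with | ind R ih => ?_
  refine fun hR l n => halve hc fun ω hω => ?_
  obtain ⟨M, h1, h2, h3, h4⟩ := exists_half hR fun k => hp ω hω fun e he => k e (l he)
  have lt : M < R := lt_of_le_of_ne h1 fun e => by simp [e] at h3
  refine ⟨M, h1, h3, h4, ?_⟩
  by_cases k : E ≤ M
  · obtain ⟨y, hy, y1⟩ := SetLike.exists_of_lt lt
    refine ⟨y, hy, y1, fun B b1 b2 => ?_⟩
    have := ih M lt (hR.to_le h1) k (h1.trans n) B b1 b2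
    exact ⟨fun r hr => by rw [mul_pow, this r hr, this _ (conj_mem_of_norm' (h2 hy) hr), one_mul],
      this _ ((mul_mem_iff_of_index_two (H := M.subgroupOf R) h3 (a := ⟨y, hy⟩) (b := ⟨y, hy⟩)).2 Iff.rfl)⟩
  · obtain ⟨y, hy, y1⟩ := SetLike.not_le_iff_exists.1 k
    refine ⟨y, l hy, y1, fun B b1 b2 => ?_⟩
    obtain ⟨a1, a2⟩ := h0 M (h1.trans n) (relIndex_eq_two_iff_exists_notMem_and.2 ⟨y, hy, y1, fun b hb => (em _).symm.imp_left fun k =>
      (mul_mem_iff_of_index_two (H := M.subgroupOf R) h3 (a := ⟨b, l hb⟩) (b := ⟨y, l hy⟩)).2 (iff_of_false k y1)⟩) y ⟨hy, h2 (l hy)⟩ y1 B b1 b2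
    refine ⟨fun r hr => ?_, a2⟩
    rw [show y⁻¹ * r * y = r * (r⁻¹ * (y⁻¹ * r * y)) by group, coc_mul hc b2 (mul_mem (inv_mem hr) (conj_mem_of_norm' (h2 (l hy)) hr)), ← mul_assoc, mul_pow,
      ← mul_assoc, ← mul_assoc, a1 r hr, mul_one, ← pow_two, ← pow_mul, ← Finset.prod_pow]
    exact Finset.prod_eq_one fun _ _ => hk _ _
end coc

variable [Finite G]

theorem LX.transfer [Finite A] (h : LX E z) (hres : pResidual 2 G = ⊤) (f : C1[z] →* A) {j : ℕ} (hj : 2 * k = 2 ^ j) (hk : ∀ a, f a ^ (2 * k) = 1)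
    (h0 : ∀ c : G → G ⧸ C1[z] → A, (∀ g h ω, c (g * h) ω = c g (h • ω) * c h ω) → (∀ g ω, c g ω ^ (2 * k) = 1) → ∀ M ≤ N[E], M.relIndex E = 2 → ∀ y ∈ E ⊓ N[M], y ∉ M →
      ∀ B : Finset (G ⧸ C1[z]), (∀ ω ∈ B, ω ≠ (1 : G)) → InvS M B → (∀ r ∈ M, (∏ ω ∈ B, c (r⁻¹ * y⁻¹ * r * y) ω) ^ k = 1) ∧ (∏ ω ∈ B, c (y * y) ω) ^ k = 1) (a : C1[z]) : f a ^ k = 1 := by
  classical
  haveI : Fact (Nat.Prime 2) := ⟨Nat.prime_two⟩
  haveI := Fintype.ofFinite (G ⧸ C1[z])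
  have m : ∀ (g : G) (ω : G ⧸ C1[z]), (g • ω).out⁻¹ * (g * ω.out) ∈ C1[z] := fun g ω => QuotientGroup.eq.1 (by rw [QuotientGroup.out_eq', ← smul_eq_mul, MulAction.Quotient.mk_smul_out])
  let c : G → G ⧸ C1[z] → A := fun g ω => f ⟨_, m g ω⟩
  have hc : ∀ g h ω, c (g * h) ω = c g (h • ω) * c h ω := fun g h ω =>
    (congrArg f (Subtype.ext (by simp [mul_smul, mul_assoc]))).trans (map_mul f _ _)
  let V : G →* A := MonoidHom.mk' (fun g => ∏ ω, c g ω) fun a b => coc_mul (R := ⊤) hc (fun _ _ _ _ => Finset.mem_univ _) trivial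
  have V1 : ∀ g, V g = 1 := fun g => (hres.ge.trans ((closure_le V.ker).2 fun g hg => orderOf_eq_one_iff.1 (Nat.eq_one_of_dvd_coprimes (Nat.Coprime.pow_right j hg) (orderOf_map_dvd V g)
    (orderOf_dvd_of_pow_eq_one (by rw [← hj]; exact (Finset.prod_pow _ _ _).symm.trans (Finset.prod_eq_one fun _ _ => hk _))))) : _ ≤ V.ker) (mem_top g)
  obtain ⟨T, hT, l⟩ := exists_syl_ge h.pg h.le_c1
  have fx : ∀ g ∈ C1[z], g • ((1 : G) : G ⧸ C1[z]) = (1 : G) := fun g hg => QuotientGroup.eq.2 (by simpa using hg)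
  have key := coc_triv hc (fun g ω => hk _) (p := (· ≠ ((1 : G) : G ⧸ C1[z]))) (fun ω hω k => hω (by
    obtain ⟨g, rfl⟩ := QuotientGroup.mk_surjective ω
    have : g * z * g⁻¹ ∈ C[E] := le_cent1_iff.1 fun e he => mem_centralizer_singleton_iff.2 (by
      have := mem_centralizer_singleton_iff.1 (QuotientGroup.eq.1 (k _ (inv_mem he)))
      simp only [smul_eq_mul, mul_inv_rev, inv_inv] at this
      calc e * (g * z * g⁻¹) = g * (g⁻¹ * e * g * z) * g⁻¹ := by group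
        _ = _ := by rw [this]; group)
    exact QuotientGroup.eq.2 (by
      simpa using mem_centralizer_singleton_iff.2 (mul_inv_eq_iff_eq_mul.1 (((mem_zp2 h.ord).1 (h.cent_eq.le this)).resolve_left (ne_one_of_two (h.map_cj g).ord)))))) (h0 c hc fun g ω => hk _)
    T hT.pg l (hT.le.trans h.norm) (Finset.univ.erase ((1 : G) : G ⧸ C1[z])) (fun ω hω => Finset.ne_of_mem_erase hω)
    fun g hg ω hω => Finset.mem_erase.2 ⟨fun e => Finset.ne_of_mem_erase hω (MulAction.injective g (e.trans (fx g (hT.le hg)).symm)), Finset.mem_univ _⟩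
  let φ := (powMonoidHom k).comp f
  have s := (hT.subgroupOf.map φ).eq_of_pgroup fun ⟨_, b, _, rfl⟩ => ⟨j, Subtype.ext (by
    change (f b ^ k) ^ 2 ^ j = 1
    rw [← hj, ← pow_mul, mul_comm k, pow_mul, hk, one_pow])⟩
  obtain ⟨t, ht, e⟩ := s.ge (mem_map_of_mem φ (mem_top a))
  refine e.symm.trans ?_
  have v := congrArg (· ^ k) ((Finset.mul_prod_erase _ (c t) (Finset.mem_univ ((1 : G) : G ⧸ C1[z]))).trans (V1 t))
  rw [mul_pow, key t ht, mul_one, one_pow] at v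
  have o : ((1 : G) : G ⧸ C1[z]).out ∈ C1[z] := by simpa using QuotientGroup.eq.1 (QuotientGroup.out_eq' ((1 : G) : G ⧸ C1[z])).symm
  rwa [show c t (1 : G) = f (⟨_, o⟩⁻¹ * (t * ⟨_, o⟩)) from congrArg f (Subtype.ext (by simp [fx t t.2])), map_mul, map_mul, mul_comm (f t), map_inv, inv_mul_cancel_left] at v

end CfsgH1
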